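import Cfsg.Agent.H203.E6.Three

/-!
# Strong forms of SING6 and SING3: a whole root subgroup commutes with the group (helper203)
-/

set_option autoImplicit false

namespace Cfsg.Agent.H203.E6

open Cfsg.Lie Cfsg.Agent.ChevalleyStructure Cfsg.Agent.ChevalleyStructure.E6Form.Cubic
  Cfsg.Agent.ChevalleyStructure.E6Form.Table Cfsg.Agent.ChevalleyStructure.E6Form.Elim Module
open Cfsg.Agent.ChevalleyStructure.E6Min.Basic (Zgrp zM zU)
open Cfsg.Agent.ChevalleyStructure.E6Min.Adjoint (ad ker_ad)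
open scoped commutatorElement

universe u

variable {F : Type u} [Field F]

/-- Maximality of the standard 6-space. -/
theorem T6_facts (b : I27) (hb : b ∉ T6) : ∃ a ∈ T6, nc a b = true := by
  have h2 : (wts.all fun b => T6.contains b || T6.any fun a => nc a b) = true := by decide +kernel
  have := forall_wts h2 b
  rw [Bool.or_eq_true, List.any_eq_true] at this
  exact this.resolve_left (fun h => hb (by simpa using h))

/-- Totally singular subspaces have dimension at most six. -/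
theorem finrank_le_six {W : Submodule F (I27 → F)} (hW : TS W) : finrank F W ≤ 6 := by
  by_contra hcon
  push Not at hcon
  let bs := Module.finBasis F ↥W
  let v : Fin 6 → (I27 → F) := fun i => (bs (Fin.castLE hcon.le i) : I27 → F)
  have hv : LinearIndependent F v :=
    (bs.linearIndependent.comp _ (Fin.castLE_injective hcon.le)).map' W.subtype (Submodule.ker_subtype W)
  obtain ⟨W', hle, h6⟩ : ∃ W' : Submodule F (I27 → F), W' ≤ W ∧ finrank F ↥W' = 6 := by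
    refine ⟨Submodule.span F (Set.range v), ?_, ?_⟩
    · rw [Submodule.span_le]
      rintro _ ⟨i, rfl⟩
      exact (bs (Fin.castLE hcon.le i)).2
    · rw [finrank_span_eq_card hv, Fintype.card_fin]
  have hW' : TS W' := fun x hx => hW x (hle hx)
  obtain ⟨g, hg, hgW⟩ := exists_mp_eq hW' h6
  have h1 : mp g W ≤ W6 F := by
    intro x hx b hb
    obtain ⟨a, ha, hab⟩ := T6_facts b hb
    have h2 : e F a ∈ mp g W := by
      have h3 : e F a ∈ mp g W' := by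
        rw [hgW]
        intro c hc
        exact e_ne (fun h => hc (h ▸ ha))
      rw [mem_mp] at h3 ⊢
      exact hle h3
    exact (hW.mp hg).apply_eq_zero h2 hx hab
  have h2 := Submodule.finrank_mono h1
  rw [finrank_mp] at h2
  have := finrank_W6_le (F := F)
  omega

/-- A conjugate of a root element is not central. -/
theorem ad_root_ne_one (g : ↥(Zgrp F)) {r : ℕ} (hr : r < 72) {t : F} (ht : t ≠ 0) :
    ad F (g * ⟨zG r t, zG_mem hr t⟩ * g⁻¹) ≠ 1 := by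
  intro h
  have hr' : 71 - r < 72 := by omega
  have h0 : ad F ⟨zG r t, zG_mem hr t⟩ = 1 := by
    rw [map_mul, map_mul, map_inv] at h
    have := congrArg (fun x => (ad F g)⁻¹ * x * ad F g) h
    simpa [mul_assoc] using this
  have h1 : (⟨zG r t, zG_mem hr t⟩ : ↥(Zgrp F)) ∈ (ad F).ker := h0
  rw [ker_ad, Subgroup.mem_center_iff] at h1
  have h3 : (zG (71 - r) 1 : GL I27 F) * zG r t = zG r t * zG (71 - r) 1 :=
    congrArg Subtype.val (h1 ⟨zG (71 - r) 1, zG_mem hr' 1⟩)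
  obtain ⟨q, hq⟩ : ∃ q, q ∈ tabr r := by
    have := forall_roots (p := fun r => !(tabr r).isEmpty) (by decide +kernel) hr
    cases h5 : tabr r with
    | nil => rw [h5] at this; exact absurd this (by decide)
    | cons q l => exact ⟨q, List.mem_cons_self⟩
  obtain ⟨hs, -, hq', hfa⟩ := tab_facts hr hq
  have hs2 : (q.1 : F) * (q.1 : F) = 1 := by rcases hs with hs | hs <;> rw [hs] <;> simp
  have ea : act (zG r t) (e F q.2.1) = e F q.2.1 + (t * (q.1 : F)) • e F q.2.2 :=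
    act_zG_e_of_source hr hq t
  have ea' : act (zG (71 - r) 1) (e F q.2.1) = e F q.2.1 :=
    act_zG_e_of_not_source hr' (fun q'' hq'' he => by
      have := ((tab_facts hr' hq'').2.2.2 _ hq').1
      exact this he) 1
  have eb' : act (zG (71 - r) 1) (e F q.2.2) = e F q.2.2 + (1 * (q.1 : F)) • e F q.2.1 :=
    act_zG_e_of_source hr' hq' 1
  have h4 := congrArg (fun m : GL I27 F => act m (e F q.2.1) q.2.1) h3
  simp only [act_mul] at h4
  rw [ea', ea, act_add, act_smul, ea', eb'] at h4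
  have hne : q.2.1 ≠ q.2.2 := fun he => (hfa q hq).1 he
  simp only [Pi.add_apply, Pi.smul_apply, smul_eq_mul, e_self, e_ne hne] at h4
  have h5 : t * ((q.1 : F) * (q.1 : F)) = 0 := by linear_combination h4
  rw [hs2, mul_one] at h5
  exact ht h5

/-- Commuting with the conjugate of a matrix. -/
theorem comm_root_of {g : GL I27 F} (hg : g ∈ Zgrp F) {r : ℕ} (hr : r < 72) {b : ↥(Zgrp F)}
    (hb : ((g * (b : GL I27 F) * g⁻¹ : GL I27 F) : Matrix I27 I27 F) * nMat F r =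
      nMat F r * ((g * (b : GL I27 F) * g⁻¹ : GL I27 F) : Matrix I27 I27 F)) (t : F) :
    b * ((⟨g, hg⟩ : ↥(Zgrp F))⁻¹ * ⟨zG r t, zG_mem hr t⟩ * (⟨g, hg⟩ : ↥(Zgrp F))⁻¹⁻¹) =
      (⟨g, hg⟩ : ↥(Zgrp F))⁻¹ * ⟨zG r t, zG_mem hr t⟩ * (⟨g, hg⟩ : ↥(Zgrp F))⁻¹⁻¹ * b := by
  have h1 : g * (b : GL I27 F) * g⁻¹ * zG r t = zG r t * (g * (b : GL I27 F) * g⁻¹) := by
    apply Units.ext
    rw [Units.val_mul, Units.val_mul (zG r t), coe_zG, zMat, mul_add, add_mul, mul_one, one_mul, Matrix.mul_smul,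
      Matrix.smul_mul, hb]
  rw [inv_inv]
  apply Subtype.ext
  change (b : GL I27 F) * (g⁻¹ * zG r t * g) = g⁻¹ * zG r t * g * (b : GL I27 F)
  calc (b : GL I27 F) * (g⁻¹ * zG r t * g) = g⁻¹ * (g * (b : GL I27 F) * g⁻¹ * zG r t) * g := by group
    _ = g⁻¹ * zG r t * g * (b : GL I27 F) := by rw [h1]; group

theorem six_strong {B : Subgroup ↥(Zgrp F)} (hB : ⁅B, B⁆ = B) {W : Submodule F (I27 → F)} (h6 : finrank F ↥W = 6)
    (hW : TS W) (hst : ∀ b ∈ B, ∀ w ∈ W, act (b : GL I27 F) w ∈ W) :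
    ∃ (g : ↥(Zgrp F)) (r : ℕ) (hr : r < 72), ∀ b ∈ B, ∀ t : F,
      b * (g * ⟨zG r t, zG_mem hr t⟩ * g⁻¹) = g * ⟨zG r t, zG_mem hr t⟩ * g⁻¹ * b := by
  obtain ⟨g, hg, hgW⟩ := exists_mp_eq hW h6
  have hstab : ∀ b ∈ B, mp (g * (b : GL I27 F) * g⁻¹) (W6 F) = W6 F := by
    intro b hb
    have h1 : mp (b : GL I27 F) W = W := by
      ext x
      rw [mem_mp]
      constructor
      · intro h
        have := hst b hb _ h
        rwa [act_act_inv] at this
      · intro h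
        have := hst b⁻¹ (inv_mem hb) _ h
        exact this
    rw [← hgW, ← mp_mul, inv_mul_cancel_right, mp_mul, h1]
  have hconj : ∀ b ∈ B, ∃ c : F, c ≠ 0 ∧ ((g * (b : GL I27 F) * g⁻¹ : GL I27 F) : Matrix I27 I27 F) * nMat F 0 =
      c • (nMat F 0 * ((g * (b : GL I27 F) * g⁻¹ : GL I27 F) : Matrix I27 I27 F)) := fun b hb =>
    conj_root (mul_mem (mul_mem hg b.2) (inv_mem hg)) (hstab b hb)
  let S : Subgroup ↥(Zgrp F) :=
    { carrier := {b | ((g * (b : GL I27 F) * g⁻¹ : GL I27 F) : Matrix I27 I27 F) * nMat F 0 =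
        nMat F 0 * ((g * (b : GL I27 F) * g⁻¹ : GL I27 F) : Matrix I27 I27 F)}
      one_mem' := by
        change ((g * ((1 : ↥(Zgrp F)) : GL I27 F) * g⁻¹ : GL I27 F) : Matrix I27 I27 F) * nMat F 0 = _
        have : g * ((1 : ↥(Zgrp F)) : GL I27 F) * g⁻¹ = 1 := by simp
        rw [this, Units.val_one, one_mul, mul_one]
      mul_mem' := by
        intro a b ha hb
        change ((g * ((a * b : ↥(Zgrp F)) : GL I27 F) * g⁻¹ : GL I27 F) : Matrix I27 I27 F) * nMat F 0 = _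
        change ((g * (a : GL I27 F) * g⁻¹ : GL I27 F) : Matrix I27 I27 F) * nMat F 0 = _ at ha
        change ((g * (b : GL I27 F) * g⁻¹ : GL I27 F) : Matrix I27 I27 F) * nMat F 0 = _ at hb
        have : g * ((a * b : ↥(Zgrp F)) : GL I27 F) * g⁻¹ =
            (g * (a : GL I27 F) * g⁻¹) * (g * (b : GL I27 F) * g⁻¹) := by
          simp only [Subgroup.coe_mul]; group
        rw [this, Units.val_mul, mul_assoc, hb, ← mul_assoc, ha, mul_assoc]
      inv_mem' := by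
        intro a ha
        change ((g * (a : GL I27 F) * g⁻¹ : GL I27 F) : Matrix I27 I27 F) * nMat F 0 = _ at ha
        change ((g * ((a⁻¹ : ↥(Zgrp F)) : GL I27 F) * g⁻¹ : GL I27 F) : Matrix I27 I27 F) * nMat F 0 =
          nMat F 0 * ((g * ((a⁻¹ : ↥(Zgrp F)) : GL I27 F) * g⁻¹ : GL I27 F) : Matrix I27 I27 F)
        have : g * ((a⁻¹ : ↥(Zgrp F)) : GL I27 F) * g⁻¹ = (g * (a : GL I27 F) * g⁻¹)⁻¹ := by
          simp only [Subgroup.coe_inv]; group
        rw [this]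
        set k := g * (a : GL I27 F) * g⁻¹
        have m1 : (k : Matrix I27 I27 F) * ((k⁻¹ : GL I27 F) : Matrix I27 I27 F) = 1 := by
          rw [← Units.val_mul, mul_inv_cancel, Units.val_one]
        have m2 : ((k⁻¹ : GL I27 F) : Matrix I27 I27 F) * (k : Matrix I27 I27 F) = 1 := by
          rw [← Units.val_mul, inv_mul_cancel, Units.val_one]
        calc ((k⁻¹ : GL I27 F) : Matrix I27 I27 F) * nMat F 0
            = ((k⁻¹ : GL I27 F) : Matrix I27 I27 F) * (nMat F 0 * (k : Matrix I27 I27 F)) *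
                ((k⁻¹ : GL I27 F) : Matrix I27 I27 F) := by rw [mul_assoc, mul_assoc, m1, mul_one]
          _ = nMat F 0 * ((k⁻¹ : GL I27 F) : Matrix I27 I27 F) := by
              rw [← ha, ← mul_assoc, m2, one_mul] }
  have hle : ⁅B, B⁆ ≤ S := by
    rw [Subgroup.commutator_le]
    intro a ha b hb
    obtain ⟨c, hc, h1⟩ := hconj a ha
    obtain ⟨d, hd, h2⟩ := hconj b hb
    have := commutator_comm hc hd h1 h2
    have h3 : g * ((⁅a, b⁆ : ↥(Zgrp F)) : GL I27 F) * g⁻¹ = ⁅g * (a : GL I27 F) * g⁻¹, g * (b : GL I27 F) * g⁻¹⁆ := by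
      rw [commutatorElement_def, commutatorElement_def]
      simp only [Subgroup.coe_mul, Subgroup.coe_inv]
      group
    change ((g * ((⁅a, b⁆ : ↥(Zgrp F)) : GL I27 F) * g⁻¹ : GL I27 F) : Matrix I27 I27 F) * nMat F 0 = nMat F 0 *
      ((g * ((⁅a, b⁆ : ↥(Zgrp F)) : GL I27 F) * g⁻¹ : GL I27 F) : Matrix I27 I27 F)
    rw [h3]
    exact this
  refine ⟨⟨g, hg⟩⁻¹, 0, by norm_num, fun b hb t => comm_root_of hg (by norm_num) ?_ t⟩
  rw [← hB] at hb
  exact hle hb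

theorem three_strong {B : Subgroup ↥(Zgrp F)} (hB : ∀ θ : ↥B →* GL (Fin 2) F, ∀ b, θ b = 1)
    {W : Submodule F (I27 → F)} (h3 : finrank F ↥W = 3) (hW : TS W)
    (hst : ∀ b ∈ B, ∀ w ∈ W, act (b : GL I27 F) w ∈ W) :
    ∃ (g : ↥(Zgrp F)) (r : ℕ) (hr : r < 72), ∀ b ∈ B, ∀ t : F,
      b * (g * ⟨zG r t, zG_mem hr t⟩ * g⁻¹) = g * ⟨zG r t, zG_mem hr t⟩ * g⁻¹ * b := by
  obtain ⟨g, hg, -, h⟩ := exists_two hB h3 hW hst
  refine ⟨⟨g, hg⟩⁻¹, 0, by norm_num, fun b hb t => comm_root_of hg (by norm_num) ?_ t⟩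
  have hb := h b hb 0
  change cj (g * (b : GL I27 F) * g⁻¹) (nMat F 0) = nMat F 0 at hb
  conv_rhs => rw [← hb]
  rw [cj, mul_assoc _ _ ((g * (b : GL I27 F) * g⁻¹ : GL I27 F) : Matrix I27 I27 F), ← Units.val_mul,
    inv_mul_cancel, Units.val_one, mul_one]

open Cfsg.Agent.H184.GraphE6 in
/-- Passage to the dual module. -/
theorem strong_dual {B : Subgroup ↥(Zgrp F)} {δ : ↥(Zgrp F) →* ↥(Zgrp F)}
    (hδ : ∀ g : ↥(Zgrp F), ((δ g : ↥(Zgrp F)) : GL I27 F) = dual (g : GL I27 F))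
    (h : ∃ (g : ↥(Zgrp F)) (r : ℕ) (hr : r < 72), ∀ b ∈ B.map δ, ∀ t : F,
      b * (g * ⟨zG r t, zG_mem hr t⟩ * g⁻¹) = g * ⟨zG r t, zG_mem hr t⟩ * g⁻¹ * b) :
    ∃ (g : ↥(Zgrp F)) (r : ℕ) (hr : r < 72), ∀ b ∈ B, ∀ t : F,
      b * (g * ⟨zG r t, zG_mem hr t⟩ * g⁻¹) = g * ⟨zG r t, zG_mem hr t⟩ * g⁻¹ * b := by
  obtain ⟨g, r, hr, h⟩ := h
  have hδδ : ∀ g, δ (δ g) = g := fun g => Subtype.ext (by rw [hδ, hδ, dual_dual])
  have hz : ∀ t : F, δ ⟨zG r t, zG_mem hr t⟩ = ⟨zG (71 - r) (-t), zG_mem (by omega) _⟩ := fun t =>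
    Subtype.ext (by rw [hδ]; exact dl_zG hr t)
  refine ⟨δ g, 71 - r, by omega, fun b hb t => ?_⟩
  have h1 := congrArg δ (h (δ b) ⟨b, hb, rfl⟩ (-t))
  simp only [map_mul, map_inv, hδδ, hz, neg_neg] at h1
  exact h1

end Cfsg.Agent.H203.E6

namespace Cfsg.Agent.H163.E6.Sing

open Cfsg.Lie Cfsg.Agent.H203.E6 Module
open Cfsg.Agent.ChevalleyStructure.E6Form.Table (act act_mul act_one zG)
open Cfsg.Agent.ChevalleyStructure.E6Min.Basic (Zgrp)
open Cfsg.Agent.ChevalleyStructure.E6Min.Adjoint (ad ker_ad)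
open Cfsg.Agent.H184.GraphE6 (gU PU PU_sq dual dual_dual dual_mem_Zgrp)

universe u

variable {F : Type u} [Field F]

/-- The dual subspace. -/
theorem mp_PU_TS {W : Submodule F (I27 → F)} (hW : TS W) : Cfsg.Agent.H203.E6.TS (mp (PU F) W) := by
  intro x hx
  rw [mem_mp] at hx
  rw [singular_iff]
  have h1 : x = act (PU F) (act (PU F)⁻¹ x) := by rw [← act_mul, mul_inv_cancel, act_one]
  rw [h1, sh_PU, hW.1 _ hx]
  exact Matrix.mulVec_zero _

theorem mp_PU_stab {W : Submodule F (I27 → F)} {B : Subgroup ↥(Zgrp F)} (hst : ∀ b ∈ B, ∀ w ∈ W, V' F b w ∈ W)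
    {δ : ↥(Zgrp F) →* ↥(Zgrp F)} (hδ : ∀ g : ↥(Zgrp F), ((δ g : ↥(Zgrp F)) : GL I27 F) = dual (g : GL I27 F)) :
    ∀ b ∈ B.map δ, ∀ w ∈ mp (PU F) W, act (b : GL I27 F) w ∈ mp (PU F) W := by
  rintro _ ⟨b, hb, rfl⟩ w hw
  rw [mem_mp] at hw ⊢
  have h1 := hst b hb _ hw
  have hP : (PU F)⁻¹ = PU F := inv_eq_of_mul_eq_one_left PU_sq
  rw [V'_apply] at h1
  change act (gU (b : GL I27 F)) (act (PU F)⁻¹ w) ∈ W at h1
  rw [hδ]
  rw [gU, ← act_mul, mul_assoc, mul_inv_cancel, mul_one, act_mul] at h1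
  rwa [hP]

/-- SING6, strong form: a whole root subgroup commutes with `B`. -/
theorem six' (ρ : Representation F ↥(Zgrp F) (I27 → F)) (hρ : ρ = V F ∨ ρ = V' F) {B : Subgroup ↥(Zgrp F)}
    (hB : ⁅B, B⁆ = B) {W : Submodule F (I27 → F)} (h6 : finrank F ↥W = 6) (hW : TS W)
    (hst : ∀ b ∈ B, ∀ w ∈ W, ρ b w ∈ W) :
    ∃ (g : ↥(Zgrp F)) (r : ℕ) (hr : r < 72), ∀ b ∈ B, ∀ t : F,
      b * (g * ⟨zG r t, zG_mem hr t⟩ * g⁻¹) = g * ⟨zG r t, zG_mem hr t⟩ * g⁻¹ * b := by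
  rcases hρ with rfl | rfl
  · exact six_strong hB h6 (TS_of hW) hst
  · let δ : ↥(Zgrp F) →* ↥(Zgrp F) :=
      { toFun := fun g => ⟨dual (g : GL I27 F), dual_mem_Zgrp g.2⟩
        map_one' := Subtype.ext (map_one dual)
        map_mul' := fun g h => Subtype.ext (map_mul dual _ _) }
    exact strong_dual (δ := δ) (fun _ => rfl) (six_strong (by rw [← Subgroup.map_commutator, hB])
      (by rw [finrank_mp, h6]) (mp_PU_TS hW) (mp_PU_stab hst (fun _ => rfl)))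

/-- SING3, strong form: a whole root subgroup commutes with `B`. -/
theorem three' (ρ : Representation F ↥(Zgrp F) (I27 → F)) (hρ : ρ = V F ∨ ρ = V' F) {B : Subgroup ↥(Zgrp F)}
    (hB : ∀ θ : ↥B →* GL (Fin 2) F, ∀ b, θ b = 1) {W : Submodule F (I27 → F)} (h3 : finrank F ↥W = 3) (hW : TS W)
    (hst : ∀ b ∈ B, ∀ w ∈ W, ρ b w ∈ W) :
    ∃ (g : ↥(Zgrp F)) (r : ℕ) (hr : r < 72), ∀ b ∈ B, ∀ t : F,
      b * (g * ⟨zG r t, zG_mem hr t⟩ * g⁻¹) = g * ⟨zG r t, zG_mem hr t⟩ * g⁻¹ * b := by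
  rcases hρ with rfl | rfl
  · exact three_strong hB h3 (TS_of hW) hst
  · let δ : ↥(Zgrp F) →* ↥(Zgrp F) :=
      { toFun := fun g => ⟨dual (g : GL I27 F), dual_mem_Zgrp g.2⟩
        map_one' := Subtype.ext (map_one dual)
        map_mul' := fun g h => Subtype.ext (map_mul dual _ _) }
    have hB' : ∀ θ : ↥(B.map δ) →* GL (Fin 2) F, ∀ b, θ b = 1 := by
      intro θ b
      obtain ⟨_, b, hb, rfl⟩ := b
      exact hB (θ.comp (δ.subgroupMap B)) ⟨b, hb⟩
    exact strong_dual (δ := δ) (fun _ => rfl) (three_strong hB' (by rw [finrank_mp, h3]) (mp_PU_TS hW)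
      (mp_PU_stab hst (fun _ => rfl)))

end Cfsg.Agent.H163.E6.Sing
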