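import Cfsg.Agent.ChevalleyStructure.E6Form.Elim
import Cfsg.Agent.ChevalleyStructure.E6Min.Elim
import Cfsg.Agent.H952.F4.Defs

/-!
# The group generated by the root elements of E₆ on the 27-dimensional module, over any field

`Zgrp F` (generated by the `zM r t`) contains all `zG r t`, is closed under inverse transpose, and preserves the
polarisations `Q`, `tri` of the cubic form, also over the field with two elements.
-/

set_option autoImplicit false

namespace Cfsg.Agent.H203.E6

open Cfsg.Lie Cfsg.Agent.ChevalleyStructure Cfsg.Agent.ChevalleyStructure.E6Form.Cubic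
  Cfsg.Agent.ChevalleyStructure.E6Form.Table Cfsg.Agent.ChevalleyStructure.E6Form.Elim
open Cfsg.Agent.ChevalleyStructure.E6Min.Basic (Zgrp zM zU)

universe u

/-! ### The two tables of root elements -/

/-- `zM r'` is `zG r` up to the sign `ε`. -/
def mt (r r' : ℕ) (ε : ℤ) : Bool := wts.all fun b =>
  if E6Min.Basic.sg r' b = 0 then (tabr r).all fun q => !(q.2.2 == b)
  else (tabr r).contains (ε * E6Min.Basic.sg r' b, E6Min.Basic.sr r' b, b)

theorem mt_spec {F : Type u} [Field F] {r r' : ℕ} {ε : ℤ} (hr : r < 72) (h : mt r r' ε = true)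
    (hε : ε = 1 ∨ ε = -1) (t : F) : zMat F r t = zM r' ((ε : F) * t) := by
  apply Matrix.toLin'.injective
  refine LinearMap.ext fun v => ?_
  rw [Matrix.toLin'_apply, Matrix.toLin'_apply, zMat_mulVec]
  funext b
  rw [E6Min.Basic.zM_mulVec, Pi.add_apply, Pi.smul_apply, smul_eq_mul]
  have h1 := forall_wts h b
  split_ifs at h1 with h2
  · rw [List.all_eq_true] at h1
    rw [nv_other (fun q hq he => by have := h1 q hq; simp [he] at this), h2]
    simp
  · rw [List.contains_iff_mem] at h1
    have h3 := nv_target hr h1 v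
    dsimp only at h3
    rw [h3]
    push_cast
    rcases hε with rfl | rfl <;> push_cast <;> ring

theorem exists_mt {r : ℕ} (hr : r < 72) : ∃ r' < 72, mt r r' 1 = true ∨ mt r r' (-1) = true := by
  have h := forall_roots (p := fun r => (List.range 72).any fun r' => mt r r' 1 || mt r r' (-1))
    (by decide +kernel) hr
  rw [List.any_eq_true] at h
  obtain ⟨r', h1, h2⟩ := h
  rw [Bool.or_eq_true] at h2
  exact ⟨r', List.mem_range.1 h1, h2⟩

theorem exists_mt' {r' : ℕ} (hr : r' < 72) : ∃ r < 72, mt r r' 1 = true ∨ mt r r' (-1) = true := by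
  have h := forall_roots (p := fun r' => (List.range 72).any fun r => mt r r' 1 || mt r r' (-1))
    (by decide +kernel) hr
  rw [List.any_eq_true] at h
  obtain ⟨r', h1, h2⟩ := h
  rw [Bool.or_eq_true] at h2
  exact ⟨r', List.mem_range.1 h1, h2⟩

variable {F : Type u} [Field F]

theorem zG_mem {r : ℕ} (hr : r < 72) (t : F) : (zG r t : GL I27 F) ∈ Zgrp F := by
  obtain ⟨r', hr', h | h⟩ := exists_mt hr
  · exact Subgroup.subset_closure ⟨r', _, hr', by rw [coe_zG, mt_spec hr h (Or.inl rfl)]⟩
  · exact Subgroup.subset_closure ⟨r', _, hr', by rw [coe_zG, mt_spec hr h (Or.inr rfl)]⟩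

/-- Induction on the elements of `Zgrp` by the `zG r t`. -/
theorem Zgrp_eq : Zgrp F = Subgroup.closure {g | ∃ (r : ℕ) (t : F), r < 72 ∧ g = zG r t} := by
  apply le_antisymm
  · unfold Zgrp
    rw [Subgroup.closure_le]
    rintro g ⟨r', t, hr', hg⟩
    obtain ⟨r, hr, h | h⟩ := exists_mt' hr'
    · refine Subgroup.subset_closure ⟨r, t, hr, ?_⟩
      apply Units.ext
      rw [hg, coe_zG, mt_spec hr h (Or.inl rfl)]; simp
    · refine Subgroup.subset_closure ⟨r, -t, hr, ?_⟩
      apply Units.ext
      rw [hg, coe_zG, mt_spec hr h (Or.inr rfl)]; simp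
  · rw [Subgroup.closure_le]
    rintro g ⟨r, t, hr, rfl⟩
    exact zG_mem hr t

/-! ### Invariance over any field -/

section base

variable {K : Type*} [Field K] (f : F →+* K)

theorem map_zM (r : ℕ) (t : F) : (zM r t).map f = zM r (f t) := by
  ext x y
  rw [E6Min.Basic.zM_def, E6Min.Basic.zM_def]
  simp only [Matrix.map_apply, Matrix.add_apply, Matrix.smul_apply, E6Min.Basic.Nm_apply, Matrix.one_apply, map_add,
    smul_eq_mul, map_mul]
  congr 1
  · split_ifs <;> simp
  · congr 1
    split_ifs <;> simp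

theorem term_map (m : ℤ × I27 × I27 × I27) (x y z : I27 → F) :
    term m (f ∘ x) (f ∘ y) (f ∘ z) = f (term m x y z) := by
  simp only [term, Function.comp_apply, map_mul, map_intCast]

theorem Q_map (x y : I27 → F) : Q (f ∘ x) (f ∘ y) = f (Q x y) := by
  simp only [Q, map_list_sum, List.map_map]
  congr 1
  refine List.map_congr_left fun m _ => ?_
  simp only [Function.comp_apply, map_add, ← term_map]

theorem tri_map (x y z : I27 → F) : tri (f ∘ x) (f ∘ y) (f ∘ z) = f (tri x y z) := by
  simp only [tri, map_list_sum, List.map_map]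
  congr 1
  refine List.map_congr_left fun m _ => ?_
  simp only [Function.comp_apply, map_add, ← term_map]

end base

theorem Q_zM {r : ℕ} (hr : r < 72) (t : F) (x y : I27 → F) :
    Q ((zM r t).mulVec x) ((zM r t).mulVec y) = Q x y := by
  let K := AlgebraicClosure F
  let f : F →+* K := algebraMap F K
  have hf : Function.Injective f := f.injective
  classical
  have : Infinite K := IsAlgClosed.instInfinite
  obtain ⟨s, hs⟩ := Infinite.exists_notMem_finset ({0, 1} : Finset K)
  have hs' : ∃ s : K, s ≠ 0 ∧ s ≠ 1 := ⟨s, fun h => hs (by simp [h]), fun h => hs (by simp [h])⟩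
  apply hf
  have h1 := Q_mulVec hs' (E6Min.Inv.Zgrp_le K (E6Min.Basic.zU_mem r (f t))) (f ∘ x) (f ∘ y)
  rw [E6Min.Basic.coe_zU hr, ← map_zM f r t] at h1
  have h2 : ∀ v : I27 → F, ((zM r t).map f).mulVec (f ∘ v) = f ∘ ((zM r t).mulVec v) := fun v => by
    funext i
    exact (RingHom.map_mulVec f _ _ i).symm
  rw [h2, h2, Q_map, Q_map] at h1
  exact h1

/-- Every element of `Zgrp` preserves `Q`. -/
theorem Q_act {g : GL I27 F} (hg : g ∈ Zgrp F) (x y : I27 → F) : Q (act g x) (act g y) = Q x y := by
  revert x y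
  unfold Zgrp at hg
  induction hg using Subgroup.closure_induction with
  | mem g hg =>
    obtain ⟨r, t, hr, hg⟩ := hg
    intro x y
    rw [act, act, hg, Q_zM hr]
  | one => intro x y; rw [act_one, act_one]
  | mul g h _ _ hg hh => intro x y; rw [act_mul, act_mul, hg, hh]
  | inv g _ hg =>
    intro x y
    rw [← hg (act g⁻¹ x), act_act_inv, act_act_inv]

theorem tri_act' {g : GL I27 F} (hg : g ∈ Zgrp F) (x y z : I27 → F) :
    tri (act g x) (act g y) (act g z) = tri x y z := tri_act (E6Min.Inv.Zgrp_le F hg) x y z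

theorem Singular.act {g : GL I27 F} (hg : g ∈ Zgrp F) {x : I27 → F} (hx : Singular x) : Singular (act g x) := by
  intro y
  rw [← act_act_inv g y, Q_act hg, hx]

/-! ### The adjoint -/

open Cfsg.Agent.H952.F4 in
set_option maxHeartbeats 4000000 in
set_option maxRecDepth 20000 in
/-- `Q x y` is the pairing of `x^#` with `y`. -/
theorem Q_eq (x y : I27 → F) : Q x y = tf (sh x) y := by
  simp only [Q, mono, List.map_cons, List.map_nil, List.sum_cons, List.sum_nil, term, tf, sh, ofM, mat3,
    Matrix.adjugate_fin_three, Matrix.trace, Matrix.diag, Matrix.mul_apply, Fin.sum_univ_three, Matrix.of_apply,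
    Matrix.sub_apply, Int.cast_one, Int.cast_neg]
  simp only [Matrix.cons_val', Matrix.cons_val_zero, Matrix.cons_val_one, Matrix.cons_val_two, Matrix.cons_val_fin_one,
    Fin.isValue, Matrix.vecHead, Matrix.vecTail, Function.comp_apply, Fin.succ_zero_eq_one]
  simp only [show (1 : Fin 3) ≠ 0 from by decide, show (2 : Fin 3) ≠ 0 from by decide,
    show (2 : Fin 3) ≠ 1 from by decide, if_true, if_false]
  ring

/-- The dual coordinate of the pairing `tf`. -/
def du (a : I27) : I27 := (-a.1, a.2.2, a.2.1)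

open Cfsg.Agent.H952.F4 in
theorem tf_e (z : I27 → F) (a : I27) : tf z (e F a) = z (du a) := by
  obtain ⟨k, i, j⟩ := a
  fin_cases k <;> fin_cases i <;> fin_cases j <;>
    simp [tf, mat3, Matrix.trace, Matrix.diag, Matrix.mul_apply, Fin.sum_univ_three, e_apply, du,
      show (-1 : Fin 3) = 2 from rfl, show (-2 : Fin 3) = 1 from rfl]

theorem du_du (a : I27) : du (du a) = a := by
  revert a; decide

open Cfsg.Agent.H952.F4 in
theorem singular_iff (x : I27 → F) : Singular x ↔ sh x = 0 := by
  constructor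
  · intro h
    funext a
    have := h (e F (du a))
    rw [Q_eq, tf_e, du_du] at this
    exact this
  · intro h y
    rw [Q_eq, h]
    simp [tf, mat3, Matrix.trace, Matrix.diag, Matrix.mul_apply]

theorem tri_eq_zero_of_singular {x y : I27 → F} (hx : Singular x) (hy : Singular y) (hxy : Singular (x + y))
    (z : I27 → F) : tri x y z = 0 := by
  have := Q_add_left x y z
  rw [hx, hy, hxy] at this
  simpa using this.symm

/-! ### Inverse transpose -/

theorem nMat_of_mem {r : ℕ} (hr : r < 72) {q : ℤ × I27 × I27} (hq : q ∈ tabr r) :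
    nMat F r q.2.2 q.2.1 = (q.1 : F) := by
  rw [nMat_apply, nv_target hr hq, e_self, mul_one]

theorem nMat_of_not {r : ℕ} (hr : r < 72) {a b : I27} (h : ¬ ∃ q ∈ tabr r, q.2.1 = a ∧ q.2.2 = b) :
    nMat F r b a = 0 := by
  rw [nMat_apply]
  by_cases hb : ∃ q ∈ tabr r, q.2.2 = b
  · obtain ⟨q, hq, rfl⟩ := hb
    rw [nv_target hr hq, e_ne (fun he => h ⟨q, hq, he, rfl⟩), mul_zero]
  · push Not at hb
    exact nv_other hb _

theorem nMat_transpose {r : ℕ} (hr : r < 72) : (nMat F r).transpose = nMat F (71 - r) := by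
  have hr' : 71 - r < 72 := by omega
  ext a b
  rw [Matrix.transpose_apply]
  by_cases h : ∃ q ∈ tabr r, q.2.1 = a ∧ q.2.2 = b
  · obtain ⟨q, hq, rfl, rfl⟩ := h
    rw [nMat_of_mem hr hq]
    exact (nMat_of_mem hr' (tab_facts hr hq).2.2.1).symm
  · rw [nMat_of_not hr h, nMat_of_not hr']
    rintro ⟨q, hq, h1, h2⟩
    have := (tab_facts hr' hq).2.2.1
    rw [show 71 - (71 - r) = r by omega] at this
    exact h ⟨_, this, h2, h1⟩

/-- The inverse transpose. -/
def dl (g : GL I27 F) : GL I27 F where
  val := ((g⁻¹ : GL I27 F) : Matrix I27 I27 F).transpose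
  inv := (g : Matrix I27 I27 F).transpose
  val_inv := by rw [← Matrix.transpose_mul, ← Units.val_mul, mul_inv_cancel, Units.val_one, Matrix.transpose_one]
  inv_val := by rw [← Matrix.transpose_mul, ← Units.val_mul, inv_mul_cancel, Units.val_one, Matrix.transpose_one]

theorem coe_dl (g : GL I27 F) : (dl g : Matrix I27 I27 F) = ((g⁻¹ : GL I27 F) : Matrix I27 I27 F).transpose := rfl

theorem dl_mul (g h : GL I27 F) : dl (g * h) = dl g * dl h := by
  apply Units.ext
  rw [Units.val_mul, coe_dl, coe_dl, coe_dl, mul_inv_rev, Units.val_mul, Matrix.transpose_mul]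

theorem dl_one : dl (1 : GL I27 F) = 1 := by
  apply Units.ext
  rw [coe_dl, inv_one, Units.val_one, Matrix.transpose_one]

/-- The inverse transpose as a homomorphism. -/
def dlHom : GL I27 F →* GL I27 F where
  toFun := dl
  map_one' := dl_one
  map_mul' := dl_mul

theorem dl_dl (g : GL I27 F) : dl (dl g) = g := by
  apply Units.ext
  rw [coe_dl]
  change (g : Matrix I27 I27 F).transpose.transpose = g
  rw [Matrix.transpose_transpose]

theorem dl_inv (g : GL I27 F) : dl g⁻¹ = (dl g)⁻¹ := map_inv dlHom g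

theorem dl_zG {r : ℕ} (hr : r < 72) (t : F) : dl (zG r t : GL I27 F) = zG (71 - r) (-t) := by
  apply Units.ext
  rw [coe_dl, coe_zG]
  change (zMat F r (-t)).transpose = _
  rw [zMat, zMat, Matrix.transpose_add, Matrix.transpose_one, Matrix.transpose_smul, nMat_transpose hr]

/-- `Zgrp` is closed under inverse transpose. -/
theorem dl_mem {g : GL I27 F} (hg : g ∈ Zgrp F) : dl g ∈ Zgrp F := by
  rw [Zgrp_eq] at hg
  induction hg using Subgroup.closure_induction with
  | mem g hg =>
    obtain ⟨r, t, hr, rfl⟩ := hg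
    rw [dl_zG hr]
    exact zG_mem (by omega) _
  | one => rw [dl_one]; exact one_mem _
  | mul g h _ _ hg hh => rw [dl_mul]; exact mul_mem hg hh
  | inv g _ hg => rw [dl_inv]; exact inv_mem hg

end Cfsg.Agent.H203.E6
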