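import Cfsg.Agent.H203.E6.Six
import Cfsg.Agent.H163.E6.Defs

/-!
# S5927, S5928: a perfect group stabilising a totally singular 6-space commutes with a root element (helper203)
-/

set_option autoImplicit false

namespace Cfsg.Agent.H203.E6

open Cfsg.Lie Cfsg.Agent.ChevalleyStructure Cfsg.Agent.ChevalleyStructure.E6Form.Cubic
  Cfsg.Agent.ChevalleyStructure.E6Form.Table Cfsg.Agent.ChevalleyStructure.E6Form.Elim Module
open Cfsg.Agent.ChevalleyStructure.E6Min.Basic (Zgrp zM zU)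
open Cfsg.Agent.ChevalleyStructure.E6Min.Adjoint (ad ker_ad)
open scoped commutatorElement

universe u

variable {F : Type u} [Field F]

/-- A conjugate of the root element is not central. -/
theorem ad_ne_one {z : ↥(Zgrp F)} {g : GL I27 F} (hg : g ∈ Zgrp F) (hz : (z : GL I27 F) = g⁻¹ * zG 0 1 * g) :
    ad F z ≠ 1 := by
  intro h
  have h1 : z ∈ (ad F).ker := h
  rw [ker_ad, Subgroup.mem_center_iff] at h1
  have h2 := congrArg Subtype.val (h1 ⟨g⁻¹ * zG 71 1 * g, mul_mem (mul_mem (inv_mem hg) (zG_mem (by norm_num) 1)) hg⟩)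
  simp only [Subgroup.coe_mul, hz] at h2
  have h3 : (zG 71 1 : GL I27 F) * zG 0 1 = zG 0 1 * zG 71 1 := by
    have : (zG 71 1 : GL I27 F) * zG 0 1 = g * (g⁻¹ * zG 71 1 * g * (g⁻¹ * zG 0 1 * g)) * g⁻¹ := by group
    rw [this, h2]; group
  have hq : ((-1, (0, 1, 0), (0, 2, 0)) : ℤ × I27 × I27) ∈ tabr 0 := by decide +kernel
  have hq' : ((-1, (0, 2, 0), (0, 1, 0)) : ℤ × I27 × I27) ∈ tabr 71 := by decide +kernel
  have h4 := congrArg (fun m : GL I27 F => act m (e F (0, 1, 0)) (0, 1, 0)) h3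
  simp only [act_mul] at h4
  rw [act_zG_e_of_source (r := 0) (by norm_num) hq,
    act_zG_e_of_not_source (r := 71) (by norm_num) (w := (0, 1, 0)) (by decide +kernel),
    act_zG_e_of_source (r := 0) (by norm_num) hq, act_add, act_smul,
    act_zG_e_of_not_source (r := 71) (by norm_num) (w := (0, 1, 0)) (by decide +kernel),
    act_zG_e_of_source (r := 71) (by norm_num) hq'] at h4
  simp [e_apply] at h4

/-- The elements commuting with a matrix up to a scalar: commutators commute with it. -/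
theorem commutator_comm {N : Matrix I27 I27 F} {h k : GL I27 F} {c d : F} (hc : c ≠ 0) (hd : d ≠ 0)
    (h1 : (h : Matrix I27 I27 F) * N = c • (N * (h : Matrix I27 I27 F)))
    (h2 : (k : Matrix I27 I27 F) * N = d • (N * (k : Matrix I27 I27 F))) :
    ((⁅h, k⁆ : GL I27 F) : Matrix I27 I27 F) * N = N * ((⁅h, k⁆ : GL I27 F) : Matrix I27 I27 F) := by
  have inv : ∀ {h : GL I27 F} {c : F}, c ≠ 0 → (h : Matrix I27 I27 F) * N = c • (N * (h : Matrix I27 I27 F)) →
      ((h⁻¹ : GL I27 F) : Matrix I27 I27 F) * N = c⁻¹ • (N * ((h⁻¹ : GL I27 F) : Matrix I27 I27 F)) := by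
    intro h c hc h1
    have m1 : (h : Matrix I27 I27 F) * ((h⁻¹ : GL I27 F) : Matrix I27 I27 F) = 1 := by
      rw [← Units.val_mul, mul_inv_cancel, Units.val_one]
    have m2 : ((h⁻¹ : GL I27 F) : Matrix I27 I27 F) * (h : Matrix I27 I27 F) = 1 := by
      rw [← Units.val_mul, inv_mul_cancel, Units.val_one]
    calc ((h⁻¹ : GL I27 F) : Matrix I27 I27 F) * N
        = ((h⁻¹ : GL I27 F) : Matrix I27 I27 F) * (N * (h : Matrix I27 I27 F)) * ((h⁻¹ : GL I27 F) : Matrix I27 I27 F) := by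
          rw [mul_assoc, mul_assoc, m1, mul_one]
      _ = ((h⁻¹ : GL I27 F) : Matrix I27 I27 F) * (c⁻¹ • ((h : Matrix I27 I27 F) * N)) *
            ((h⁻¹ : GL I27 F) : Matrix I27 I27 F) := by
          rw [h1, smul_smul, inv_mul_cancel₀ hc, one_smul]
      _ = c⁻¹ • (N * ((h⁻¹ : GL I27 F) : Matrix I27 I27 F)) := by
          rw [Matrix.mul_smul, Matrix.smul_mul, ← mul_assoc, m2, one_mul]
  have h1' := inv hc h1
  have h2' := inv hd h2
  rw [commutatorElement_def, Units.val_mul, Units.val_mul, Units.val_mul]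
  set a := (h : Matrix I27 I27 F)
  set b := (k : Matrix I27 I27 F)
  set a' := ((h⁻¹ : GL I27 F) : Matrix I27 I27 F)
  set b' := ((k⁻¹ : GL I27 F) : Matrix I27 I27 F)
  calc a * b * a' * b' * N = a * b * a' * (b' * N) := by rw [mul_assoc]
    _ = d⁻¹ • (a * b * (a' * N) * b') := by rw [h2', Matrix.mul_smul]; simp only [mul_assoc]
    _ = d⁻¹ • c⁻¹ • (a * (b * N) * a' * b') := by
        rw [h1', Matrix.mul_smul, Matrix.smul_mul]; simp only [mul_assoc]
    _ = d⁻¹ • c⁻¹ • d • ((a * N) * b * a' * b') := by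
        rw [h2, Matrix.mul_smul, Matrix.smul_mul, Matrix.smul_mul]; simp only [mul_assoc]
    _ = (d⁻¹ * c⁻¹ * d * c) • (N * (a * b * a' * b')) := by
        rw [h1, Matrix.smul_mul, Matrix.smul_mul, Matrix.smul_mul, smul_smul, smul_smul, smul_smul]
        simp only [mul_assoc]
    _ = N * (a * b * a' * b') := by
        have : d⁻¹ * c⁻¹ * d * c = 1 := by field_simp
        rw [this, one_smul]

theorem six_core {B : Subgroup ↥(Zgrp F)} (hB : ⁅B, B⁆ = B) {W : Submodule F (I27 → F)} (h6 : finrank F ↥W = 6)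
    (hW : TS W) (hst : ∀ b ∈ B, ∀ w ∈ W, act (b : GL I27 F) w ∈ W) :
    ∃ z : ↥(Zgrp F), ad F z ≠ 1 ∧ ∀ b ∈ B, b * z = z * b := by
  obtain ⟨g, hg, hgW⟩ := exists_mp_eq hW h6
  set γ : ↥(Zgrp F) := ⟨g, hg⟩ with hγ
  -- conjugates of elements of `B` normalise the root subgroup
  have hstab : ∀ b ∈ B, mp (g * (b : GL I27 F) * g⁻¹) (W6 F) = W6 F := by
    intro b hb
    have h1 : mp (b : GL I27 F) W = W := by
      ext x
      rw [mem_mp]
      constructor
      · intro h
        have := hst b hb _ h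
        rwa [act_act_inv] at this
      · intro h
        have := hst b⁻¹ (inv_mem hb) _ h
        exact this
    rw [← hgW, ← mp_mul, inv_mul_cancel_right, mp_mul, h1]
  have hconj : ∀ b ∈ B, ∃ c : F, c ≠ 0 ∧ ((g * (b : GL I27 F) * g⁻¹ : GL I27 F) : Matrix I27 I27 F) * nMat F 0 =
      c • (nMat F 0 * ((g * (b : GL I27 F) * g⁻¹ : GL I27 F) : Matrix I27 I27 F)) := fun b hb =>
    conj_root (mul_mem (mul_mem hg b.2) (inv_mem hg)) (hstab b hb)
  -- the centraliser
  let z0 : ↥(Zgrp F) := ⟨zG 0 1, zG_mem (by norm_num) 1⟩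
  have hcomm : ∀ b : ↥(Zgrp F), ((g * (b : GL I27 F) * g⁻¹ : GL I27 F) : Matrix I27 I27 F) * nMat F 0 =
      nMat F 0 * ((g * (b : GL I27 F) * g⁻¹ : GL I27 F) : Matrix I27 I27 F) → b * (γ⁻¹ * z0 * γ) = γ⁻¹ * z0 * γ * b := by
    intro b hb
    have h1 : g * (b : GL I27 F) * g⁻¹ * zG 0 1 = zG 0 1 * (g * (b : GL I27 F) * g⁻¹) := by
      apply Units.ext
      rw [Units.val_mul, Units.val_mul (zG 0 1), coe_zG, zMat, one_smul, mul_add, add_mul, mul_one, one_mul, hb]
    apply Subtype.ext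
    change (b : GL I27 F) * (g⁻¹ * zG 0 1 * g) = g⁻¹ * zG 0 1 * g * (b : GL I27 F)
    calc (b : GL I27 F) * (g⁻¹ * zG 0 1 * g) = g⁻¹ * (g * (b : GL I27 F) * g⁻¹ * zG 0 1) * g := by group
      _ = g⁻¹ * zG 0 1 * g * (b : GL I27 F) := by rw [h1]; group
  refine ⟨γ⁻¹ * z0 * γ, ad_ne_one hg rfl, ?_⟩
  have hle : ⁅B, B⁆ ≤ Subgroup.centralizer {γ⁻¹ * z0 * γ} := by
    rw [Subgroup.commutator_le]
    intro a ha b hb
    rw [Subgroup.mem_centralizer_singleton_iff]
    apply hcomm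
    obtain ⟨c, hc, h1⟩ := hconj a ha
    obtain ⟨d, hd, h2⟩ := hconj b hb
    have := commutator_comm hc hd h1 h2
    have h3 : g * ((⁅a, b⁆ : ↥(Zgrp F)) : GL I27 F) * g⁻¹ = ⁅g * (a : GL I27 F) * g⁻¹, g * (b : GL I27 F) * g⁻¹⁆ := by
      rw [commutatorElement_def, commutatorElement_def]
      simp only [Subgroup.coe_mul, Subgroup.coe_inv]
      group
    rw [h3]
    exact this
  intro b hb
  rw [← hB] at hb
  have := hle hb
  rw [Subgroup.mem_centralizer_singleton_iff] at this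
  exact this

theorem TS_of {W : Submodule F (I27 → F)} (hW : Cfsg.Agent.H163.E6.TS W) : TS W := fun x hx =>
  (singular_iff x).2 (hW.1 x hx)

open Cfsg.Agent.H184.GraphE6 Cfsg.Agent.H952.F4 in
/-- The permutation `P` of the coordinates is compatible with the adjoint. -/
theorem sh_PU (x : I27 → F) : sh (act (PU F) x) = act (PU F) (sh x) := by
  funext a
  change _ = (PM F).mulVec (sh x) a
  have h : act (PU F) x = fun b => x (pi b) := by
    funext b; exact PM_mulVec x b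
  rw [h, PM_mulVec]
  obtain ⟨k, i, j⟩ := a
  fin_cases k <;> fin_cases i <;> fin_cases j <;>
    simp [sh, ofM, mat3, Matrix.adjugate_fin_three, Matrix.mul_apply, Fin.sum_univ_three, pi] <;> ring

end Cfsg.Agent.H203.E6

namespace Cfsg.Agent.H163.E6.Sing

open Cfsg.Lie Cfsg.Agent.H203.E6 Module
open Cfsg.Agent.ChevalleyStructure.E6Form.Table (act act_mul act_one)
open Cfsg.Agent.ChevalleyStructure.E6Min.Basic (Zgrp)
open Cfsg.Agent.ChevalleyStructure.E6Min.Adjoint (ad ker_ad)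
open Cfsg.Agent.H184.GraphE6 (gU PU PU_sq dual dual_dual dual_mem_Zgrp)

universe u

variable {F : Type u} [Field F]

/-- SING6. -/
theorem six (ρ : Representation F ↥(Zgrp F) (I27 → F)) (hρ : ρ = V F ∨ ρ = V' F) {B : Subgroup ↥(Zgrp F)}
    (hB : ⁅B, B⁆ = B) {W : Submodule F (I27 → F)} (h6 : finrank F ↥W = 6) (hW : TS W)
    (hst : ∀ b ∈ B, ∀ w ∈ W, ρ b w ∈ W) : ∃ z : ↥(Zgrp F), ad F z ≠ 1 ∧ ∀ b ∈ B, b * z = z * b := by
  rcases hρ with rfl | rfl
  · exact six_core hB h6 (TS_of hW) hst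
  · let δ : ↥(Zgrp F) →* ↥(Zgrp F) :=
      { toFun := fun g => ⟨dual (g : GL I27 F), dual_mem_Zgrp g.2⟩
        map_one' := Subtype.ext (map_one dual)
        map_mul' := fun g h => Subtype.ext (map_mul dual _ _) }
    have hδ : ∀ g, δ (δ g) = g := fun g => Subtype.ext (dual_dual _)
    have hB' : ⁅B.map δ, B.map δ⁆ = B.map δ := by rw [← Subgroup.map_commutator, hB]
    have hW' : Cfsg.Agent.H203.E6.TS (mp (PU F) W) := by
      intro x hx
      rw [mem_mp] at hx
      rw [singular_iff]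
      have h1 : x = act (PU F) (act (PU F)⁻¹ x) := by rw [← act_mul, mul_inv_cancel, act_one]
      rw [h1, sh_PU, hW.1 _ hx]
      exact Matrix.mulVec_zero _
    obtain ⟨z, hz1, hz⟩ := six_core hB' (by rw [finrank_mp, h6]) hW' (by
      rintro _ ⟨b, hb, rfl⟩ w hw
      rw [mem_mp] at hw ⊢
      have h1 := hst b hb _ hw
      have hP : (PU F)⁻¹ = PU F := inv_eq_of_mul_eq_one_left PU_sq
      rw [V'_apply] at h1
      change act (gU (b : GL I27 F)) (act (PU F)⁻¹ w) ∈ W at h1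
      change act (PU F)⁻¹ (act (dual (b : GL I27 F)) w) ∈ W
      rw [gU, ← act_mul, mul_assoc, mul_inv_cancel, mul_one, act_mul] at h1
      rwa [hP])
    refine ⟨δ z, ?_, ?_⟩
    · intro h
      apply hz1
      have h1 : δ z ∈ (ad F).ker := h
      have h2 : z ∈ (ad F).ker := by
        rw [ker_ad, Subgroup.mem_center_iff] at h1 ⊢
        intro g
        have := congrArg δ (h1 (δ g))
        rwa [map_mul, map_mul, hδ, hδ] at this
      exact h2
    · intro b hb
      have := congrArg δ (hz (δ b) ⟨b, hb, rfl⟩)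
      rwa [map_mul, map_mul, hδ] at this

end Cfsg.Agent.H163.E6.Sing
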