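import Cfsg.Agent.H203.E6.Base

/-!
# Totally singular six-dimensional subspaces of the 27-dimensional module of E₆

`Zgrp F` is transitive on them (`exists_mp_eq`), and the stabiliser of the image of a root element normalises that
root subgroup (`conj_root`).
-/

set_option autoImplicit false

namespace Cfsg.Agent.H203.E6

open Cfsg.Lie Cfsg.Agent.ChevalleyStructure Cfsg.Agent.ChevalleyStructure.E6Form.Cubic
  Cfsg.Agent.ChevalleyStructure.E6Form.Table Cfsg.Agent.ChevalleyStructure.E6Form.Elim Module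
open Cfsg.Agent.ChevalleyStructure.E6Min.Basic (Zgrp zM zU)

universe u

variable {F : Type u} [Field F]

/-! ### Images of subspaces -/

/-- The image of a subspace. -/
def mp (g : GL I27 F) (W : Submodule F (I27 → F)) : Submodule F (I27 → F) :=
  W.map (Matrix.toLin' (g : Matrix I27 I27 F))

theorem mem_mp {g : GL I27 F} {W : Submodule F (I27 → F)} {x : I27 → F} : x ∈ mp g W ↔ act g⁻¹ x ∈ W := by
  constructor
  · rintro ⟨y, hy, rfl⟩
    rw [Matrix.toLin'_apply]
    change act g⁻¹ (act g y) ∈ W
    rwa [act_inv_act]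
  · intro h
    exact ⟨_, h, by rw [Matrix.toLin'_apply]; exact act_act_inv g x⟩

theorem act_mem_mp {g : GL I27 F} {W : Submodule F (I27 → F)} {x : I27 → F} (hx : x ∈ W) : act g x ∈ mp g W := by
  rw [mem_mp, act_inv_act]; exact hx

theorem mp_mul (g h : GL I27 F) (W : Submodule F (I27 → F)) : mp (g * h) W = mp g (mp h W) := by
  ext x
  rw [mem_mp, mem_mp, mem_mp, mul_inv_rev, act_mul]

theorem mp_one (W : Submodule F (I27 → F)) : mp 1 W = W := by
  ext x
  rw [mem_mp, inv_one, act_one]

theorem finrank_mp (g : GL I27 F) (W : Submodule F (I27 → F)) : finrank F (mp g W) = finrank F W := by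
  have hinj : Function.Injective (Matrix.toLin' (g : Matrix I27 I27 F)) := by
    intro x y h
    rw [Matrix.toLin'_apply, Matrix.toLin'_apply] at h
    have := congrArg (act g⁻¹) h
    change act g⁻¹ (act g x) = act g⁻¹ (act g y) at this
    rwa [act_inv_act, act_inv_act] at this
  exact (Submodule.equivMapOfInjective _ hinj W).finrank_eq.symm

/-- Totally singular subspaces. -/
def TS (W : Submodule F (I27 → F)) : Prop := ∀ x ∈ W, Singular x

theorem TS.mp {W : Submodule F (I27 → F)} (hW : TS W) {g : GL I27 F} (hg : g ∈ Zgrp F) : TS (mp g W) := by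
  intro x hx
  rw [mem_mp] at hx
  have := Singular.act hg (hW _ hx)
  rwa [act_act_inv] at this

theorem TS.tri {W : Submodule F (I27 → F)} (hW : TS W) {x y : I27 → F} (hx : x ∈ W) (hy : y ∈ W) (z : I27 → F) :
    tri x y z = 0 := tri_eq_zero_of_singular (hW x hx) (hW y hy) (hW _ (W.add_mem hx hy)) z

/-! ### Linearity of the trilinear form -/

theorem tri_add_left (x x' y z : I27 → F) : tri (x + x') y z = tri x y z + tri x' y z := by
  rw [tri_formula, tri_formula, tri_formula, ← Finset.sum_add_distrib]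
  refine Finset.sum_congr rfl fun a _ => ?_
  rw [← Finset.sum_add_distrib]
  refine Finset.sum_congr rfl fun b _ => ?_
  split_ifs
  · rw [Pi.add_apply]; ring
  · rw [add_zero]

theorem tri_add_mid (x y y' z : I27 → F) : tri x (y + y') z = tri x y z + tri x y' z := by
  rw [tri_comm12, tri_add_left, tri_comm12 y, tri_comm12 y']

theorem tri_add_right (x y z z' : I27 → F) : tri x y (z + z') = tri x y z + tri x y z' := by
  rw [tri_comm23, tri_add_mid, tri_comm23 x z, tri_comm23 x z']

/-- Coordinates at weights non-collinear with a basis vector of a totally singular subspace vanish. -/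
theorem TS.apply_eq_zero {W : Submodule F (I27 → F)} (hW : TS W) {w : I27} (hw : e F w ∈ W) {x : I27 → F}
    (hx : x ∈ W) {b : I27} (hb : nc w b = true) : x b = 0 := by
  obtain ⟨-, h1, h2, -, -⟩ := (th_facts w b).1 hb
  have h3 := hW.tri hw hx (e F (th w b))
  rw [tri_comm23, tri_e_e, if_pos h1, h2] at h3
  exact (mul_eq_zero.1 h3).resolve_left (sg_ne_zero h1)

/-! ### Elimination without restriction on the field -/

theorem eliminate' (K : Subgroup (GL I27 F)) (hKu : K ≤ Zgrp F) (l : I27)
    {x : I27 → F} (hx : Singular x) (hl : x l ≠ 0)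
    (hK : ∀ r < 72, ∀ q ∈ tabr r, q.2.1 = l → x q.2.2 ≠ 0 → ∀ t : F, zG r t ∈ K) :
    ∃ h ∈ K, act h x = x l • e F l := by
  obtain ⟨h, hh, h1, h2, -⟩ := clear K l x hl hK (wts.filter fun b => ip l b == 1)
    (fun b hb => by simpa using (List.mem_filter.1 hb).2)
  have h2' : ∀ b, ip l b = 1 → act h x b = 0 := fun b hb =>
    h2 b (List.mem_filter.2 ⟨mem_wts b, by simpa using hb⟩)
  have hsing : Singular (act h x) := Singular.act (hKu hh) hx
  refine ⟨h, hh, ?_⟩
  funext d
  rw [Pi.smul_apply, smul_eq_mul]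
  rcases ip_cases l d with h3 | h3 | h3
  · rw [← h3.2, h1, e_self, mul_one]
  · rw [h2' d h3.1, e_ne (Ne.symm h3.2.1), mul_zero]
  · rw [hsing.eq_zero (by rwa [h1]) h2' h3.2.2, e_ne (Ne.symm h3.2.1), mul_zero]

theorem exists_reduced (W : Submodule F (I27 → F)) (L : List I27) (hd : L.length < finrank F W) :
    ∃ x ∈ W, x ≠ 0 ∧ ∀ w ∈ L, x w = 0 := by
  let f : W →ₗ[F] (Fin L.length → F) := LinearMap.pi fun i => (LinearMap.proj (L.get i)).comp W.subtype
  have h : finrank F (Fin L.length → F) < finrank F W := by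
    rwa [finrank_fin_fun]
  have hk := LinearMap.ker_ne_bot_of_finrank_lt (f := f) h
  obtain ⟨x, hx, hne⟩ := (Submodule.ne_bot_iff _).1 hk
  refine ⟨x, x.2, fun h => hne (Subtype.ext h), fun w hw => ?_⟩
  obtain ⟨i, rfl⟩ := List.mem_iff_get.1 hw
  exact congrFun (LinearMap.mem_ker.1 hx) i

/-- The check for one step. -/
def chk (L : List I27) (a : I27) : Bool := !(L.contains a) && (L.all fun w => ip w a == 1) &&
  wts.all fun c => !(L.all fun w => ip w c == 1) || reach L c a

theorem step {L : List I27} {a : I27} (hc : chk L a = true) {W : Submodule F (I27 → F)} (hW : TS W)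
    (hL : ∀ w ∈ L, e F w ∈ W) (hd : L.length < finrank F W) : ∃ h ∈ KW (Zgrp F) L, e F a ∈ mp h W := by
  rw [chk, Bool.and_eq_true, Bool.and_eq_true] at hc
  obtain ⟨⟨haL, hLa⟩, hc⟩ := hc
  have haL : a ∉ L := by simpa using haL
  rw [List.all_eq_true] at hLa
  have hKle : KW (Zgrp F) L ≤ Zgrp F := fun h hh => hh.1
  obtain ⟨x, hxW, hx0, hxL⟩ := exists_reduced W L hd
  obtain ⟨c, hxc⟩ : ∃ c, x c ≠ 0 := by
    by_contra hcon
    push Not at hcon
    exact hx0 (funext hcon)
  have hLc : L.all (fun w => ip w c == 1) = true := by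
    rw [List.all_eq_true]
    intro w hw
    rw [beq_iff_eq]
    rcases ip_cases w c with h | h | h
    · exact absurd (h.2 ▸ hxL w hw) hxc
    · exact h.1
    · exact absurd (hW.apply_eq_zero (hL w hw) hxW h.2.2) hxc
  have hreach : reach L c a = true := by
    have := forall_wts hc c
    rw [hLc] at this
    simpa using this
  obtain ⟨k, hk, hne⟩ := pivot (G0 := Zgrp F) (fun r hr t => zG_mem hr t) hreach hxc
  have hkx : act k x ∈ mp k W := act_mem_mp hxW
  have hTS : TS (mp k W) := hW.mp (hKle hk)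
  have hkL : ∀ w ∈ L, e F w ∈ mp k W := fun w hw => by
    have := act_mem_mp (g := k) (hL w hw)
    rwa [hk.2 w hw] at this
  obtain ⟨h, hh, h1⟩ := eliminate' (KW (Zgrp F) L) hKle a (hTS _ hkx) hne (by
    intro r hr q hq hql hne' t
    refine ⟨zG_mem hr t, fun w hw => act_zG_e_of_not_source hr ?_ t⟩
    intro q' hq' he
    have h1 := ((tab_facts hr hq).2.2.2 q' hq').2.2.2 w
    have h3 := (tab_facts hr hq').2.1
    rw [he] at h3
    rw [he, ip_self, hql, h3] at h1
    have h4 : ip w a = 1 := by simpa using hLa w hw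
    rw [h4] at h1
    rcases ip_cases w q.2.2 with h5 | h5 | h5
    · omega
    · omega
    · exact hne' (hTS.apply_eq_zero (hkL w hw) hkx h5.2.2))
  refine ⟨h * k, Subgroup.mul_mem _ hh hk, ?_⟩
  rw [mp_mul]
  have h2 := act_mem_mp (g := h) hkx
  rw [h1] at h2
  have h3 := (mp h (mp k W)).smul_mem (act k x a)⁻¹ h2
  rwa [smul_smul, inv_mul_cancel₀ hne, one_smul] at h3

/-- The targets of the root element with index 0. -/
def T6 : List I27 := [(0, 2, 0), (0, 2, 1), (0, 2, 2), (2, 0, 1), (2, 1, 1), (2, 2, 1)]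

/-- The vectors supported on the targets. -/
def W6 (F : Type u) [Field F] : Submodule F (I27 → F) where
  carrier := {x | ∀ a, a ∉ T6 → x a = 0}
  add_mem' {x y} hx hy a ha := by rw [Pi.add_apply, hx a ha, hy a ha, add_zero]
  zero_mem' a _ := rfl
  smul_mem' c x hx a ha := by rw [Pi.smul_apply, hx a ha, smul_zero]

theorem mem_W6 {x : I27 → F} : x ∈ W6 F ↔ ∀ a, a ∉ T6 → x a = 0 := Iff.rfl

theorem finrank_W6_le : finrank F (W6 F) ≤ 6 := by
  let f : W6 F →ₗ[F] (Fin T6.length → F) := LinearMap.pi fun i => (LinearMap.proj (T6.get i)).comp (W6 F).subtype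
  have hinj : Function.Injective f := by
    rw [← LinearMap.ker_eq_bot, LinearMap.ker_eq_bot']
    intro x hx
    apply Subtype.ext
    funext a
    by_cases ha : a ∈ T6
    · obtain ⟨i, rfl⟩ := List.mem_iff_get.1 ha
      exact congrFun hx i
    · exact x.2 a ha
  have := LinearMap.finrank_le_finrank_of_injective hinj
  rwa [finrank_fin_fun] at this

/-- The last weight collinear with the first four. -/
theorem last_facts : (∀ a, a ∉ T6 → a ≠ (2, 0, 0) → nc (0, 2, 0) a = true ∨ nc (0, 2, 1) a = true ∨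
    nc (0, 2, 2) a = true ∨ nc (2, 0, 1) a = true) := by
  intro a
  have h := forall_wts (p := fun a => T6.contains a || (a == (2, 0, 0)) || nc (0, 2, 0) a || nc (0, 2, 1) a ||
    nc (0, 2, 2) a || nc (2, 0, 1) a) (by decide +kernel) a
  simp only [Bool.or_eq_true, beq_iff_eq, List.contains_iff_mem] at h
  tauto

/-- A totally singular subspace of dimension six containing the first four basis vectors. -/
theorem le_W6 {W : Submodule F (I27 → F)} (hW : TS W) (h6 : finrank F W = 6) (h1 : e F (0, 2, 0) ∈ W)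
    (h2 : e F (0, 2, 1) ∈ W) (h3 : e F (0, 2, 2) ∈ W) (h4 : e F (2, 0, 1) ∈ W) : W = W6 F := by
  have hz : ∀ x ∈ W, ∀ a, a ∉ T6 → a ≠ (2, 0, 0) → x a = 0 := by
    intro x hx a ha hb
    rcases last_facts a ha hb with h | h | h | h
    · exact hW.apply_eq_zero h1 hx h
    · exact hW.apply_eq_zero h2 hx h
    · exact hW.apply_eq_zero h3 hx h
    · exact hW.apply_eq_zero h4 hx h
  obtain ⟨y, hy, hy0, hyL⟩ := exists_reduced W [(0, 2, 0), (0, 2, 1), (0, 2, 2), (2, 0, 1), (2, 0, 0)]
    (by rw [h6]; decide)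
  have hy' : y = y (2, 1, 1) • e F (2, 1, 1) + y (2, 2, 1) • e F (2, 2, 1) := by
    funext a
    rw [Pi.add_apply, Pi.smul_apply, Pi.smul_apply, smul_eq_mul, smul_eq_mul]
    by_cases ha : a ∈ T6
    · by_cases h5 : a = (2, 1, 1)
      · subst h5; rw [e_self, e_ne (by decide)]; ring
      · by_cases h6 : a = (2, 2, 1)
        · subst h6; rw [e_self, e_ne (by decide)]; ring
        · rw [e_ne h5, e_ne h6, hyL a]
          · ring
          · simp only [T6, List.mem_cons, List.not_mem_nil, or_false] at ha ⊢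
            tauto
    · have h5 : a ≠ (2, 1, 1) := fun h => ha (h ▸ by decide)
      have h6 : a ≠ (2, 2, 1) := fun h => ha (h ▸ by decide)
      rw [e_ne h5, e_ne h6]
      by_cases hb : a = (2, 0, 0)
      · rw [hyL a (by rw [hb]; decide)]; ring
      · rw [hz y hy a ha hb]; ring
  have key : ∀ x ∈ W, x (2, 0, 0) = 0 := by
    intro x hx
    by_contra hne
    have ht : ∀ z, y (2, 1, 1) * tri (e F (2, 1, 1)) x z + y (2, 2, 1) * tri (e F (2, 2, 1)) x z = 0 := by
      intro z
      have := hW.tri hy hx z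
      rw [hy', tri_add_left, tri_smul_left, tri_smul_left] at this
      exact this
    have t1 := ht (e F (2, 2, 2))
    have t2 := ht (e F (2, 1, 2))
    rw [tri_comm23, tri_e_e, tri_comm23 (e F (2, 2, 1)), tri_e_e, if_pos (by decide), if_neg (by decide),
      show th (2, 1, 1) (2, 2, 2) = (2, 0, 0) by decide] at t1
    rw [tri_comm23, tri_e_e, tri_comm23 (e F (2, 2, 1)), tri_e_e, if_neg (by decide), if_pos (by decide),
      show th (2, 2, 1) (2, 1, 2) = (2, 0, 0) by decide] at t2
    have s1 : ((sg (2, 1, 1) (2, 2, 2) : ℤ) : F) ≠ 0 := sg_ne_zero (by decide)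
    have s2 : ((sg (2, 2, 1) (2, 1, 2) : ℤ) : F) ≠ 0 := sg_ne_zero (by decide)
    have u1 : y (2, 1, 1) = 0 := by
      have : y (2, 1, 1) * ((sg (2, 1, 1) (2, 2, 2) : ℤ) * x (2, 0, 0)) = 0 := by simpa using t1
      exact (mul_eq_zero.1 this).resolve_right (mul_ne_zero s1 hne)
    have u2 : y (2, 2, 1) = 0 := by
      have : y (2, 2, 1) * ((sg (2, 2, 1) (2, 1, 2) : ℤ) * x (2, 0, 0)) = 0 := by simpa using t2
      exact (mul_eq_zero.1 this).resolve_right (mul_ne_zero s2 hne)
    apply hy0
    rw [hy', u1, u2, zero_smul, zero_smul, add_zero]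
  have hle : W ≤ W6 F := by
    intro x hx a ha
    by_cases hb : a = (2, 0, 0)
    · rw [hb]; exact key x hx
    · exact hz x hx a ha hb
  exact Submodule.eq_of_le_of_finrank_le hle (by rw [h6]; exact finrank_W6_le)

theorem checks : chk [] (0, 2, 0) = true ∧ chk [(0, 2, 0)] (0, 2, 1) = true ∧
    chk [(0, 2, 1), (0, 2, 0)] (0, 2, 2) = true ∧ chk [(0, 2, 2), (0, 2, 1), (0, 2, 0)] (2, 0, 1) = true := by
  decide +kernel

/-- **Transitivity on the totally singular subspaces of dimension six.** -/
theorem exists_mp_eq {W : Submodule F (I27 → F)} (hW : TS W) (h6 : finrank F W = 6) :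
    ∃ g ∈ Zgrp F, mp g W = W6 F := by
  obtain ⟨g1, hg1, m1⟩ := step checks.1 hW (by simp) (by rw [h6]; decide)
  have hW1 := hW.mp hg1.1
  have f1 : finrank F (mp g1 W) = 6 := by rw [finrank_mp, h6]
  obtain ⟨g2, hg2, m2⟩ := step checks.2.1 hW1 (by simpa using m1) (by rw [f1]; decide)
  have hW2 := hW1.mp hg2.1
  have f2 : finrank F (mp g2 (mp g1 W)) = 6 := by rw [finrank_mp, f1]
  have n1 : e F (0, 2, 0) ∈ mp g2 (mp g1 W) := by
    have := act_mem_mp (g := g2) m1
    rwa [hg2.2 _ (by simp)] at this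
  obtain ⟨g3, hg3, m3⟩ := step checks.2.2.1 hW2 (by
    intro w hw
    simp only [List.mem_cons, List.not_mem_nil, or_false] at hw
    rcases hw with rfl | rfl
    · exact m2
    · exact n1) (by rw [f2]; decide)
  have hW3 := hW2.mp hg3.1
  have f3 : finrank F (mp g3 (mp g2 (mp g1 W))) = 6 := by rw [finrank_mp, f2]
  have k1 : e F (0, 2, 0) ∈ mp g3 (mp g2 (mp g1 W)) := by
    have := act_mem_mp (g := g3) n1
    rwa [hg3.2 _ (by simp)] at this
  have k2 : e F (0, 2, 1) ∈ mp g3 (mp g2 (mp g1 W)) := by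
    have := act_mem_mp (g := g3) m2
    rwa [hg3.2 _ (by simp)] at this
  obtain ⟨g4, hg4, m4⟩ := step checks.2.2.2 hW3 (by
    intro w hw
    simp only [List.mem_cons, List.not_mem_nil, or_false] at hw
    rcases hw with rfl | rfl | rfl
    · exact m3
    · exact k2
    · exact k1) (by rw [f3]; decide)
  have l1 : e F (0, 2, 0) ∈ mp g4 (mp g3 (mp g2 (mp g1 W))) := by
    have := act_mem_mp (g := g4) k1
    rwa [hg4.2 _ (by simp)] at this
  have l2 : e F (0, 2, 1) ∈ mp g4 (mp g3 (mp g2 (mp g1 W))) := by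
    have := act_mem_mp (g := g4) k2
    rwa [hg4.2 _ (by simp)] at this
  have l3 : e F (0, 2, 2) ∈ mp g4 (mp g3 (mp g2 (mp g1 W))) := by
    have := act_mem_mp (g := g4) m3
    rwa [hg4.2 _ (by simp)] at this
  refine ⟨g4 * (g3 * (g2 * g1)), mul_mem hg4.1 (mul_mem hg3.1 (mul_mem hg2.1 hg1.1)), ?_⟩
  rw [mp_mul, mp_mul, mp_mul]
  exact le_W6 (hW3.mp hg4.1) (by rw [finrank_mp, f3]) l1 l2 l3 m4

/-! ### Uniqueness of the root subgroup -/

/-- The value of the derivation identity on basis vectors. -/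
def der (E : Matrix I27 I27 F) (a b c : I27) : F :=
  (if nc b c = true then ((sg b c : ℤ) : F) * E (th b c) a else 0) +
    (if nc a c = true then ((sg a c : ℤ) : F) * E (th a c) b else 0) +
    (if nc a b = true then ((sg a b : ℤ) : F) * E (th a b) c else 0)

theorem mulVec_e (E : Matrix I27 I27 F) (a b : I27) : E.mulVec (e F a) b = E b a := by
  rw [e, Matrix.mulVec_single_one, Matrix.col_apply]

/-- A transvection-like element `1 + E` with `E` mapping into a totally singular subspace satisfies the derivation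
identity. -/
theorem der_eq_zero {E : Matrix I27 I27 F} {W : Submodule F (I27 → F)} (hW : TS W)
    (hE : ∀ x, E.mulVec x ∈ W) (htri : ∀ x y z, tri (x + E.mulVec x) (y + E.mulVec y) (z + E.mulVec z) = tri x y z)
    (a b c : I27) : der E a b c = 0 := by
  have h12 : ∀ x y z, tri (E.mulVec x) (E.mulVec y) z = 0 := fun x y z => hW.tri (hE x) (hE y) z
  have h13 : ∀ x y z, tri (E.mulVec x) y (E.mulVec z) = 0 := fun x y z => by
    rw [tri_comm23]; exact h12 x z y
  have h23 : ∀ x y z, tri x (E.mulVec y) (E.mulVec z) = 0 := fun x y z => by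
    rw [tri_comm12]; exact h13 y x z
  have h := htri (e F a) (e F b) (e F c)
  simp only [tri_add_left, tri_add_mid, tri_add_right, h12, h13, h23, add_zero] at h
  have h1 : tri (E.mulVec (e F a)) (e F b) (e F c) =
      if nc b c = true then ((sg b c : ℤ) : F) * E (th b c) a else 0 := by
    rw [tri_comm12, tri_comm23, tri_e_e, mulVec_e]
  have h2 : tri (e F a) (E.mulVec (e F b)) (e F c) =
      if nc a c = true then ((sg a c : ℤ) : F) * E (th a c) b else 0 := by
    rw [tri_comm23, tri_e_e, mulVec_e]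
  have h3 : tri (e F a) (e F b) (E.mulVec (e F c)) =
      if nc a b = true then ((sg a b : ℤ) : F) * E (th a b) c else 0 := by
    rw [tri_e_e, mulVec_e]
  rw [der, ← h1, ← h2, ← h3]
  linear_combination h

theorem der_sub_smul (E N : Matrix I27 I27 F) (k : F) (a b c : I27) :
    der (E - k • N) a b c = der E a b c - k * der N a b c := by
  simp only [der, Matrix.sub_apply, Matrix.smul_apply, smul_eq_mul]
  split_ifs <;> ring

/-- The check that the derivation identities determine a matrix with rows in `T6` up to one entry. -/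
def chkE : Bool := T6.all fun d => wts.all fun x => ((d == ((0, 2, 0) : I27)) && (x == ((0, 1, 0) : I27))) ||
  wts.any fun y => wts.any fun z => nc y z && (th y z == d) &&
    (!(nc x z && T6.contains (th x z)) || ((th x z == ((0, 2, 0) : I27)) && (y == ((0, 1, 0) : I27)))) &&
    (!(nc x y && T6.contains (th x y)) || ((th x y == ((0, 2, 0) : I27)) && (z == ((0, 1, 0) : I27))))

theorem chkE_true : chkE = true := by decide +kernel

theorem eq_zero_of_der {E : Matrix I27 I27 F} (hE : ∀ d, d ∉ T6 → ∀ x, E d x = 0) (h0 : E (0, 2, 0) (0, 1, 0) = 0)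
    (hder : ∀ a b c, der E a b c = 0) : E = 0 := by
  ext d x
  rw [Matrix.zero_apply]
  by_cases hd : d ∈ T6
  · have h := chkE_true
    rw [chkE, List.all_eq_true] at h
    have h1 := forall_wts (h d hd) x
    rw [Bool.or_eq_true, Bool.and_eq_true, beq_iff_eq, beq_iff_eq, List.any_eq_true] at h1
    rcases h1 with ⟨rfl, rfl⟩ | ⟨y, -, h1⟩
    · exact h0
    · rw [List.any_eq_true] at h1
      obtain ⟨z, -, h1⟩ := h1
      rw [Bool.and_eq_true, Bool.and_eq_true, Bool.and_eq_true] at h1
      obtain ⟨⟨⟨h1, h2⟩, h3⟩, h4⟩ := h1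
      rw [beq_iff_eq] at h2
      have key : ∀ u v : I27, (!(nc x u && T6.contains (th x u)) || ((th x u == ((0, 2, 0) : I27)) &&
          (v == ((0, 1, 0) : I27)))) = true → nc x u = true → E (th x u) v = 0 := by
        intro u v h5 h6
        rw [h6, Bool.true_and] at h5
        by_cases h7 : th x u ∈ T6
        · have h8 : T6.contains (th x u) = true := by simpa using h7
          rw [h8] at h5
          simp only [Bool.not_true, Bool.false_or, Bool.and_eq_true, beq_iff_eq] at h5
          rw [h5.1, h5.2]; exact h0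
        · exact hE _ h7 _
      have h5 := hder x y z
      rw [der, if_pos h1, h2] at h5
      have h6 : (if nc x z = true then ((sg x z : ℤ) : F) * E (th x z) y else 0) = 0 := by
        split_ifs with h7
        · rw [key z y h3 h7, mul_zero]
        · rfl
      have h8 : (if nc x y = true then ((sg x y : ℤ) : F) * E (th x y) z else 0) = 0 := by
        split_ifs with h7
        · rw [key y z h4 h7, mul_zero]
        · rfl
      rw [h6, h8, add_zero, add_zero] at h5
      exact (mul_eq_zero.1 h5).resolve_left (sg_ne_zero h1)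
  · exact hE d hd x

theorem nMat_mem_W6 (x : I27 → F) : (nMat F 0).mulVec x ∈ W6 F := by
  intro a ha
  rw [nMat_mulVec]
  refine nv_other (fun q hq he => ha ?_) x
  have : (tabr 0).all (fun q => T6.contains q.2.2) = true := by decide +kernel
  rw [List.all_eq_true] at this
  simpa [he] using this q hq

theorem W6_TS : TS (W6 F) := by
  intro x hx y
  rw [Q_eq_L3]
  have h : L3.all (fun t => !(T6.contains t.2.1 && T6.contains t.2.2.1)) = true := by decide +kernel
  rw [List.all_eq_true] at h
  apply List.sum_eq_zero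
  intro v hv
  obtain ⟨t, ht, rfl⟩ := List.mem_map.1 hv
  have h1 := h t ht
  rw [Bool.not_eq_true', Bool.and_eq_false_iff] at h1
  rcases h1 with h1 | h1
  · rw [term, hx t.2.1 (by simpa using h1)]; ring
  · rw [term, hx t.2.2.1 (by simpa using h1)]; ring

theorem nMat_entry : nMat F 0 (0, 2, 0) (0, 1, 0) = -1 := by
  have hq : ((-1, (0, 1, 0), (0, 2, 0)) : ℤ × I27 × I27) ∈ tabr 0 := by decide +kernel
  have := nMat_of_mem (F := F) (r := 0) (by norm_num) hq
  simpa using this

/-- **The stabiliser of `W6` normalises the root subgroup.** -/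
theorem conj_root {h : GL I27 F} (hh : h ∈ Zgrp F) (hW : mp h (W6 F) = W6 F) : ∃ c : F, c ≠ 0 ∧
    (h : Matrix I27 I27 F) * nMat F 0 = c • (nMat F 0 * (h : Matrix I27 I27 F)) := by
  set hi : Matrix I27 I27 F := ((h⁻¹ : GL I27 F) : Matrix I27 I27 F) with hhi
  have m1 : (h : Matrix I27 I27 F) * hi = 1 := by rw [hhi, ← Units.val_mul, mul_inv_cancel, Units.val_one]
  have m2 : hi * (h : Matrix I27 I27 F) = 1 := by rw [hhi, ← Units.val_mul, inv_mul_cancel, Units.val_one]
  set E : Matrix I27 I27 F := (h : Matrix I27 I27 F) * nMat F 0 * hi with hE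
  have hEW : ∀ x, E.mulVec x ∈ W6 F := by
    intro x
    rw [hE, ← Matrix.mulVec_mulVec, ← Matrix.mulVec_mulVec]
    have := act_mem_mp (g := h) (nMat_mem_W6 (F := F) (hi.mulVec x))
    rw [hW] at this
    exact this
  have htN : ∀ x y z : I27 → F, tri (x + (nMat F 0).mulVec x) (y + (nMat F 0).mulVec y) (z + (nMat F 0).mulVec z) =
      tri x y z := by
    intro x y z
    have := tri_act' (zG_mem (F := F) (r := 0) (by norm_num) 1) x y z
    simp only [act_zG, one_smul, ← nMat_mulVec] at this
    exact this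
  have htE : ∀ x y z : I27 → F, tri (x + E.mulVec x) (y + E.mulVec y) (z + E.mulVec z) = tri x y z := by
    intro x y z
    have hk : h * zG 0 1 * h⁻¹ ∈ Zgrp F := mul_mem (mul_mem hh (zG_mem (by norm_num) 1)) (inv_mem hh)
    have := tri_act' hk x y z
    have h1 : ∀ v : I27 → F, act (h * zG 0 1 * h⁻¹) v = v + E.mulVec v := by
      intro v
      rw [act_mul, act_mul, act_zG, one_smul, act_add, act_act_inv, ← nMat_mulVec]
      congr 1
      rw [hE, ← Matrix.mulVec_mulVec, ← Matrix.mulVec_mulVec]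
      rfl
    rw [h1, h1, h1] at this
    exact this
  set k : F := -E (0, 2, 0) (0, 1, 0) with hk
  have hzero : E - k • nMat F 0 = 0 := by
    apply eq_zero_of_der
    · intro d hd x
      have h1 := hEW (e F x) d hd
      have h2 := nMat_mem_W6 (e F x) d hd
      rw [mulVec_e] at h1 h2
      rw [Matrix.sub_apply, Matrix.smul_apply, h1, h2, smul_zero, sub_zero]
    · rw [Matrix.sub_apply, Matrix.smul_apply, nMat_entry, hk]
      simp
    · intro a b c
      rw [der_sub_smul, der_eq_zero W6_TS hEW htE, der_eq_zero W6_TS nMat_mem_W6 htN, mul_zero, sub_zero]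
  have hEk : E = k • nMat F 0 := sub_eq_zero.1 hzero
  refine ⟨k, ?_, ?_⟩
  · intro hk0
    rw [hk0, zero_smul] at hEk
    have h1 : nMat F 0 = hi * E * (h : Matrix I27 I27 F) := by
      rw [hE, ← mul_assoc, ← mul_assoc, m2, one_mul, mul_assoc, m2, mul_one]
    rw [hEk, mul_zero, zero_mul] at h1
    have h2 := nMat_entry (F := F)
    rw [h1, Matrix.zero_apply] at h2
    exact one_ne_zero (neg_eq_zero.1 h2.symm)
  · have h1 : (h : Matrix I27 I27 F) * nMat F 0 = E * (h : Matrix I27 I27 F) := by
      rw [hE, mul_assoc _ hi, m2, mul_one]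
    rw [h1, hEk, Matrix.smul_mul]

end Cfsg.Agent.H203.E6
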