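import Cfsg.Agent.H203.E6.Sing

/-!
# Totally singular three-dimensional subspaces of the 27-dimensional module of E₆

The stabiliser of a totally singular 3-space acts linearly on a two-dimensional space of root elements.
-/

set_option autoImplicit false

namespace Cfsg.Agent.H203.E6

open Cfsg.Lie Cfsg.Agent.ChevalleyStructure Cfsg.Agent.ChevalleyStructure.E6Form.Cubic
  Cfsg.Agent.ChevalleyStructure.E6Form.Table Cfsg.Agent.ChevalleyStructure.E6Form.Elim Module
open Cfsg.Agent.ChevalleyStructure.E6Min.Basic (Zgrp zM zU)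
open Cfsg.Agent.ChevalleyStructure.E6Min.Adjoint (ad ker_ad)

universe u

variable {F : Type u} [Field F]

/-- The vectors supported on a list of weights. -/
def Ws (F : Type u) [Field F] (T : List I27) : Submodule F (I27 → F) where
  carrier := {x | ∀ a, a ∉ T → x a = 0}
  add_mem' {x y} hx hy a ha := by rw [Pi.add_apply, hx a ha, hy a ha, add_zero]
  zero_mem' a _ := rfl
  smul_mem' c x hx a ha := by rw [Pi.smul_apply, hx a ha, smul_zero]

theorem mem_Ws {T : List I27} {x : I27 → F} : x ∈ Ws F T ↔ ∀ a, a ∉ T → x a = 0 := Iff.rfl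

theorem Ws_TS {T : List I27} (h : (L3.all fun t => !(T.contains t.2.1 && T.contains t.2.2.1)) = true) :
    TS (Ws F T) := by
  intro x hx y
  rw [Q_eq_L3]
  rw [List.all_eq_true] at h
  apply List.sum_eq_zero
  intro v hv
  obtain ⟨t, ht, rfl⟩ := List.mem_map.1 hv
  have h1 := h t ht
  rw [Bool.not_eq_true', Bool.and_eq_false_iff] at h1
  rcases h1 with h1 | h1
  · rw [term, hx t.2.1 (by simpa using h1)]; ring
  · rw [term, hx t.2.2.1 (by simpa using h1)]; ring

theorem nMat_mem_Ws {T : List I27} {r : ℕ} (h : ((tabr r).all fun q => T.contains q.2.2) = true) (x : I27 → F) :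
    (nMat F r).mulVec x ∈ Ws F T := by
  intro a ha
  rw [nMat_mulVec]
  refine nv_other (fun q hq he => ha ?_) x
  rw [List.all_eq_true] at h
  simpa [he] using h q hq

/-- The check that the derivation identities determine a matrix with rows in `T` up to the entries in `P`. -/
def chkG (T : List I27) (P : List (I27 × I27)) : Bool := T.all fun d => wts.all fun x => P.contains (d, x) ||
  wts.any fun y => wts.any fun z => nc y z && (th y z == d) &&
    (!(nc x z && T.contains (th x z)) || P.contains (th x z, y)) &&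
    (!(nc x y && T.contains (th x y)) || P.contains (th x y, z))

theorem eq_zero_of_chkG {T : List I27} {P : List (I27 × I27)} (hT : chkG T P = true) {E : Matrix I27 I27 F}
    (hE : ∀ d, d ∉ T → ∀ x, E d x = 0) (h0 : ∀ p ∈ P, E p.1 p.2 = 0)
    (hder : ∀ a b c, der E a b c = 0) : E = 0 := by
  ext d x
  rw [Matrix.zero_apply]
  by_cases hd : d ∈ T
  · have h := hT
    rw [chkG, List.all_eq_true] at h
    have h1 := forall_wts (h d hd) x
    rw [Bool.or_eq_true, List.any_eq_true, List.contains_iff_mem] at h1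
    rcases h1 with h1 | ⟨y, -, h1⟩
    · exact h0 _ h1
    · rw [List.any_eq_true] at h1
      obtain ⟨z, -, h1⟩ := h1
      rw [Bool.and_eq_true, Bool.and_eq_true, Bool.and_eq_true] at h1
      obtain ⟨⟨⟨h1, h2⟩, h3⟩, h4⟩ := h1
      rw [beq_iff_eq] at h2
      have key : ∀ u v : I27, (!(nc x u && T.contains (th x u)) || P.contains (th x u, v)) = true →
          nc x u = true → E (th x u) v = 0 := by
        intro u v h5 h6
        rw [h6, Bool.true_and] at h5
        by_cases h7 : th x u ∈ T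
        · have h8 : T.contains (th x u) = true := by simpa using h7
          rw [h8] at h5
          simp only [Bool.not_true, Bool.false_or, List.contains_iff_mem] at h5
          exact h0 _ h5
        · exact hE _ h7 _
      have h5 := hder x y z
      rw [der, if_pos h1, h2] at h5
      have h6 : (if nc x z = true then ((sg x z : ℤ) : F) * E (th x z) y else 0) = 0 := by
        split_ifs with h7
        · rw [key z y h3 h7, mul_zero]
        · rfl
      have h8 : (if nc x y = true then ((sg x y : ℤ) : F) * E (th x y) z else 0) = 0 := by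
        split_ifs with h7
        · rw [key y z h4 h7, mul_zero]
        · rfl
      rw [h6, h8, add_zero, add_zero] at h5
      exact (mul_eq_zero.1 h5).resolve_left (sg_ne_zero h1)
  · exact hE d hd x

/-- The weights of the standard 3-space. -/
def T3 : List I27 := [(0, 2, 0), (0, 2, 1), (0, 2, 2)]

/-- The weights collinear with them. -/
def T9 : List I27 := [(0, 2, 0), (0, 2, 1), (0, 2, 2), (2, 0, 0), (2, 0, 1), (2, 1, 0), (2, 1, 1), (2, 2, 0), (2, 2, 1)]

/-- The targets of the root element with index 1. -/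
def T6' : List I27 := [(0, 2, 0), (0, 2, 1), (0, 2, 2), (2, 0, 0), (2, 1, 0), (2, 2, 0)]

theorem checks3 : chk [] (0, 2, 0) = true ∧ chk [(0, 2, 0)] (0, 2, 1) = true ∧
    chk [(0, 2, 1), (0, 2, 0)] (0, 2, 2) = true := by
  decide +kernel

theorem chkG_T9 : chkG T9 [((0, 2, 0), (0, 1, 0)), ((0, 2, 0), (0, 0, 0))] = true := by decide +kernel

theorem T9_facts : (∀ a ∈ T3, ∀ b ∈ T9, nc a b = false) ∧ (∀ b, b ∉ T9 → ∃ a ∈ T3, nc a b = true) := by
  have h1 : (T3.all fun a => T9.all fun b => !nc a b) = true := by decide +kernel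
  have h2 : (wts.all fun b => T9.contains b || T3.any fun a => nc a b) = true := by decide +kernel
  constructor
  · intro a ha b hb
    rw [List.all_eq_true] at h1
    have := h1 a ha
    rw [List.all_eq_true] at this
    simpa using this b hb
  · intro b hb
    have := forall_wts h2 b
    rw [Bool.or_eq_true, List.any_eq_true] at this
    exact this.resolve_left (fun h => hb (by simpa using h))

theorem e_mem_Ws {T : List I27} {a : I27} (ha : a ∈ T) : e F a ∈ Ws F T := fun _ hb =>
  e_ne (fun h => hb (h ▸ ha))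

theorem eq_three {x : I27 → F} (hx : x ∈ Ws F T3) : x = x (0, 2, 0) • e F (0, 2, 0) + x (0, 2, 1) • e F (0, 2, 1) +
    x (0, 2, 2) • e F (0, 2, 2) := by
  funext a
  simp only [Pi.add_apply, Pi.smul_apply, smul_eq_mul, e_apply]
  by_cases h : a ∈ T3
  · simp only [T3, List.mem_cons, List.not_mem_nil, or_false] at h
    rcases h with rfl | rfl | rfl <;> simp
  · rw [hx a h]
    have h1 : a ≠ (0, 2, 0) := fun he => h (by rw [he]; decide)
    have h2 : a ≠ (0, 2, 1) := fun he => h (by rw [he]; decide)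
    have h3 : a ≠ (0, 2, 2) := fun he => h (by rw [he]; decide)
    simp [h1, h2, h3]

theorem three_le_finrank : 3 ≤ finrank F (Ws F T3) := by
  let f : (Fin 3 → F) →ₗ[F] (Ws F T3) :=
    { toFun := fun v => ⟨v 0 • e F (0, 2, 0) + v 1 • e F (0, 2, 1) + v 2 • e F (0, 2, 2),
        (Ws F T3).add_mem ((Ws F T3).add_mem ((Ws F T3).smul_mem _ (e_mem_Ws (by decide)))
          ((Ws F T3).smul_mem _ (e_mem_Ws (by decide)))) ((Ws F T3).smul_mem _ (e_mem_Ws (by decide)))⟩
      map_add' := fun v w => by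
        apply Subtype.ext
        simp only [Pi.add_apply, add_smul, Submodule.coe_add]
        abel
      map_smul' := fun c v => by
        apply Subtype.ext
        simp only [Pi.smul_apply, smul_eq_mul, mul_smul, RingHom.id_apply, Submodule.coe_smul, smul_add] }
  have hinj : Function.Injective f := by
    rw [← LinearMap.ker_eq_bot, LinearMap.ker_eq_bot']
    intro v hv
    have h1 := congrArg Subtype.val hv
    change v 0 • e F (0, 2, 0) + v 1 • e F (0, 2, 1) + v 2 • e F (0, 2, 2) = 0 at h1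
    have h2 := congrFun h1 (0, 2, 0)
    have h3 := congrFun h1 (0, 2, 1)
    have h4 := congrFun h1 (0, 2, 2)
    simp [e_apply] at h2 h3 h4
    funext i
    fin_cases i
    · exact h2
    · exact h3
    · exact h4
  have := LinearMap.finrank_le_finrank_of_injective hinj
  rwa [finrank_fin_fun] at this

/-- **Transitivity on the totally singular subspaces of dimension three.** -/
theorem exists_mp_eq3 {W : Submodule F (I27 → F)} (hW : TS W) (h3 : finrank F W = 3) :
    ∃ g ∈ Zgrp F, mp g W = Ws F T3 := by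
  obtain ⟨g1, hg1, m1⟩ := step checks3.1 hW (by simp) (by rw [h3]; decide)
  have hW1 := hW.mp hg1.1
  have f1 : finrank F (mp g1 W) = 3 := by rw [finrank_mp, h3]
  obtain ⟨g2, hg2, m2⟩ := step checks3.2.1 hW1 (by simpa using m1) (by rw [f1]; decide)
  have hW2 := hW1.mp hg2.1
  have f2 : finrank F (mp g2 (mp g1 W)) = 3 := by rw [finrank_mp, f1]
  have n1 : e F (0, 2, 0) ∈ mp g2 (mp g1 W) := by
    have := act_mem_mp (g := g2) m1
    rwa [hg2.2 _ (by simp)] at this
  obtain ⟨g3, hg3, m3⟩ := step checks3.2.2 hW2 (by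
    intro w hw
    simp only [List.mem_cons, List.not_mem_nil, or_false] at hw
    rcases hw with rfl | rfl
    · exact m2
    · exact n1) (by rw [f2]; decide)
  have f3 : finrank F (mp g3 (mp g2 (mp g1 W))) = 3 := by rw [finrank_mp, f2]
  have k1 : e F (0, 2, 0) ∈ mp g3 (mp g2 (mp g1 W)) := by
    have := act_mem_mp (g := g3) n1
    rwa [hg3.2 _ (by simp)] at this
  have k2 : e F (0, 2, 1) ∈ mp g3 (mp g2 (mp g1 W)) := by
    have := act_mem_mp (g := g3) m2
    rwa [hg3.2 _ (by simp)] at this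
  refine ⟨g3 * (g2 * g1), mul_mem hg3.1 (mul_mem hg2.1 hg1.1), ?_⟩
  rw [mp_mul, mp_mul]
  symm
  refine Submodule.eq_of_le_of_finrank_le ?_ (by rw [f3]; exact three_le_finrank)
  intro x hx
  rw [eq_three hx]
  exact Submodule.add_mem _ (Submodule.add_mem _ (Submodule.smul_mem _ _ k1) (Submodule.smul_mem _ _ k2))
    (Submodule.smul_mem _ _ m3)

theorem mem_W9 {x : I27 → F} : x ∈ Ws F T9 ↔ ∀ w ∈ Ws F T3, ∀ z, tri w x z = 0 := by
  constructor
  · intro hx w hw z
    rw [tri_formula]
    refine Finset.sum_eq_zero fun a _ => Finset.sum_eq_zero fun b _ => ?_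
    split_ifs with hab
    · by_cases ha : a ∈ T3
      · by_cases hb : b ∈ T9
        · rw [T9_facts.1 a ha b hb] at hab
          exact absurd hab (by decide)
        · rw [hx b hb]; ring
      · rw [hw a ha]; ring
    · rfl
  · intro h b hb
    obtain ⟨a, ha, hab⟩ := T9_facts.2 b hb
    obtain ⟨-, h1, h2, -, -⟩ := (th_facts a b).1 hab
    have h3 := h (e F a) (e_mem_Ws ha) (e F (th a b))
    rw [tri_comm23, tri_e_e, if_pos h1, h2] at h3
    exact (mul_eq_zero.1 h3).resolve_left (sg_ne_zero h1)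

theorem mp_W9 {h : GL I27 F} (hh : h ∈ Zgrp F) (hW : mp h (Ws F T3) = Ws F T3) {x : I27 → F} (hx : x ∈ Ws F T9) :
    act h x ∈ Ws F T9 := by
  rw [mem_W9] at hx ⊢
  intro w hw z
  rw [← hW, mem_mp] at hw
  have := tri_act' hh (act h⁻¹ w) x (act h⁻¹ z)
  rw [act_act_inv, act_act_inv] at this
  rw [this]
  exact hx _ hw _

/-- The matrix of a conjugate. -/
def cj (h : GL I27 F) (N : Matrix I27 I27 F) : Matrix I27 I27 F :=
  (h : Matrix I27 I27 F) * N * ((h⁻¹ : GL I27 F) : Matrix I27 I27 F)

theorem cj_mul (h k : GL I27 F) (N : Matrix I27 I27 F) : cj (h * k) N = cj h (cj k N) := by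
  simp only [cj, mul_inv_rev, Units.val_mul, mul_assoc]

theorem cj_one (N : Matrix I27 I27 F) : cj 1 N = N := by simp [cj]

theorem cj_add (h : GL I27 F) (M N : Matrix I27 I27 F) : cj h (M + N) = cj h M + cj h N := by
  simp only [cj, mul_add, add_mul]

theorem cj_smul (h : GL I27 F) (c : F) (N : Matrix I27 I27 F) : cj h (c • N) = c • cj h N := by
  simp only [cj, Matrix.mul_smul, Matrix.smul_mul]

theorem nMat_entries : nMat F 0 (0, 2, 0) (0, 1, 0) = -1 ∧ nMat F 0 (0, 2, 0) (0, 0, 0) = 0 ∧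
    nMat F 1 (0, 2, 0) (0, 1, 0) = 0 ∧ nMat F 1 (0, 2, 0) (0, 0, 0) = -1 := by
  refine ⟨nMat_entry, ?_, ?_, ?_⟩
  · refine nMat_of_not (by norm_num) ?_
    decide +kernel
  · refine nMat_of_not (by norm_num) ?_
    decide +kernel
  · have hq : ((-1, (0, 0, 0), (0, 2, 0)) : ℤ × I27 × I27) ∈ tabr 1 := by decide +kernel
    have := nMat_of_mem (F := F) (r := 1) (by norm_num) hq
    simpa using this

/-- A conjugate of a root element satisfies the derivation identity. -/
theorem der_cj {h : GL I27 F} (hh : h ∈ Zgrp F) {r : ℕ} (hr : r < 72) {T : List I27}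
    (hT : (L3.all fun t => !(T.contains t.2.1 && T.contains t.2.2.1)) = true)
    (hN : ((tabr r).all fun q => T.contains q.2.2) = true) (a b c : I27) : der (cj h (nMat F r)) a b c = 0 := by
  refine der_eq_zero ((Ws_TS (F := F) hT).mp hh) ?_ ?_ a b c
  · intro x
    rw [cj, ← Matrix.mulVec_mulVec, ← Matrix.mulVec_mulVec]
    exact act_mem_mp (nMat_mem_Ws hN _)
  · intro x y z
    have hk : h * zG r 1 * h⁻¹ ∈ Zgrp F := mul_mem (mul_mem hh (zG_mem hr 1)) (inv_mem hh)
    have := tri_act' hk x y z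
    have h1 : ∀ v : I27 → F, act (h * zG r 1 * h⁻¹) v = v + (cj h (nMat F r)).mulVec v := by
      intro v
      rw [act_mul, act_mul, act_zG, one_smul, act_add, act_act_inv, ← nMat_mulVec]
      congr 1
      rw [cj, ← Matrix.mulVec_mulVec, ← Matrix.mulVec_mulVec]
      rfl
    rw [h1, h1, h1] at this
    exact this

theorem der_add (E N : Matrix I27 I27 F) (a b c : I27) :
    der (E + N) a b c = der E a b c + der N a b c := by
  simp only [der, Matrix.add_apply]
  split_ifs <;> ring

/-- The two coordinates. -/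
def co (E : Matrix I27 I27 F) (i : Fin 2) : F := -E (0, 2, 0) (if i = 0 then (0, 1, 0) else (0, 0, 0))

/-- **The stabiliser of the standard 3-space acts on the span of two root elements.** -/
theorem cj_eq {h : GL I27 F} (hh : h ∈ Zgrp F) (hW : mp h (Ws F T3) = Ws F T3) (j : Fin 2) :
    cj h (nMat F j.val) = co (cj h (nMat F j.val)) 0 • nMat F 0 + co (cj h (nMat F j.val)) 1 • nMat F 1 := by
  have c0 : (L3.all fun t => !(T6.contains t.2.1 && T6.contains t.2.2.1)) = true := by decide +kernel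
  have c1 : (L3.all fun t => !(T6'.contains t.2.1 && T6'.contains t.2.2.1)) = true := by decide +kernel
  have n0 : ((tabr 0).all fun q => T6.contains q.2.2) = true := by decide +kernel
  have n1 : ((tabr 1).all fun q => T6'.contains q.2.2) = true := by decide +kernel
  have m0 : ((tabr 0).all fun q => T9.contains q.2.2) = true := by decide +kernel
  have m1 : ((tabr 1).all fun q => T9.contains q.2.2) = true := by decide +kernel
  have hder : ∀ a b c, der (cj h (nMat F j.val)) a b c = 0 := by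
    fin_cases j
    · exact der_cj hh (by norm_num) c0 n0
    · exact der_cj hh (by norm_num) c1 n1
  have hmem : ∀ x, (cj h (nMat F j.val)).mulVec x ∈ Ws F T9 := by
    intro x
    rw [cj, ← Matrix.mulVec_mulVec, ← Matrix.mulVec_mulVec]
    refine mp_W9 hh hW ?_
    fin_cases j
    · exact nMat_mem_Ws m0 _
    · exact nMat_mem_Ws m1 _
  generalize cj h (nMat F j.val) = E at hder hmem
  have hzero : E - (co E 0 • nMat F 0 + co E 1 • nMat F 1) = 0 := by
    apply eq_zero_of_chkG chkG_T9
    · intro d hd x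
      have h1 := hmem (e F x) d hd
      have h2 := nMat_mem_Ws (F := F) m0 (e F x) d hd
      have h3 := nMat_mem_Ws (F := F) m1 (e F x) d hd
      rw [mulVec_e] at h1 h2 h3
      rw [Matrix.sub_apply, Matrix.add_apply, Matrix.smul_apply, Matrix.smul_apply, h1, h2, h3]
      simp
    · intro p hp
      obtain ⟨q1, q2, q3, q4⟩ := nMat_entries (F := F)
      simp only [List.mem_cons, List.not_mem_nil, or_false] at hp
      rcases hp with rfl | rfl
      · simp [Matrix.sub_apply, Matrix.add_apply, Matrix.smul_apply, co, q1, q3]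
      · simp [Matrix.sub_apply, Matrix.add_apply, Matrix.smul_apply, co, q2, q4]
    · intro a b c
      have e1 : E - (co E 0 • nMat F 0 + co E 1 • nMat F 1) = (E - co E 0 • nMat F 0) - co E 1 • nMat F 1 := by abel
      have k0 := der_cj (F := F) (one_mem (Zgrp F)) (r := 0) (by norm_num) c0 n0 a b c
      have k1 := der_cj (F := F) (one_mem (Zgrp F)) (r := 1) (by norm_num) c1 n1 a b c
      rw [cj_one] at k0 k1
      rw [e1, der_sub_smul, der_sub_smul, hder, k0, k1]
      ring
  exact sub_eq_zero.1 hzero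

theorem co_add (E N : Matrix I27 I27 F) (i : Fin 2) : co (E + N) i = co E i + co N i := by
  simp only [co, Matrix.add_apply]; ring

theorem co_smul (c : F) (E : Matrix I27 I27 F) (i : Fin 2) : co (c • E) i = c * co E i := by
  simp only [co, Matrix.smul_apply, smul_eq_mul]; ring

theorem co_nMat (i j : Fin 2) : co (nMat F j.val) i = if i = j then 1 else 0 := by
  obtain ⟨q1, q2, q3, q4⟩ := nMat_entries (F := F)
  fin_cases i <;> fin_cases j <;> simp [co, q1, q2, q3, q4]

/-- The two-dimensional representation. -/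
def M2 (h : GL I27 F) : Matrix (Fin 2) (Fin 2) F := Matrix.of fun i j => co (cj h (nMat F j.val)) i

theorem M2_one : M2 (1 : GL I27 F) = 1 := by
  ext i j
  rw [M2, Matrix.of_apply, cj_one, co_nMat, Matrix.one_apply]

theorem M2_mul {h k : GL I27 F} (hk : k ∈ Zgrp F) (hkW : mp k (Ws F T3) = Ws F T3) :
    M2 (h * k) = M2 h * M2 k := by
  ext i j
  rw [M2, Matrix.of_apply, cj_mul, cj_eq hk hkW j, cj_add, cj_smul, cj_smul, co_add, co_smul, co_smul,
    Matrix.mul_apply, Fin.sum_univ_two]
  simp only [M2, Matrix.of_apply, Fin.val_zero, Fin.val_one]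
  ring

/-- A group without non-trivial two-dimensional representations stabilising a totally singular 3-space commutes with
two root elements. -/
theorem exists_two {B : Subgroup ↥(Zgrp F)} (hB : ∀ θ : ↥B →* GL (Fin 2) F, ∀ b, θ b = 1)
    {W : Submodule F (I27 → F)} (h3 : finrank F ↥W = 3) (hW : TS W)
    (hst : ∀ b ∈ B, ∀ w ∈ W, act (b : GL I27 F) w ∈ W) :
    ∃ g ∈ Zgrp F, mp g W = Ws F T3 ∧ ∀ b ∈ B, ∀ j : Fin 2,
      cj (g * (b : GL I27 F) * g⁻¹) (nMat F j.val) = nMat F j.val := by
  obtain ⟨g, hg, hgW⟩ := exists_mp_eq3 hW h3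
  have hstab : ∀ b ∈ B, mp (g * (b : GL I27 F) * g⁻¹) (Ws F T3) = Ws F T3 := by
    intro b hb
    have h1 : mp (b : GL I27 F) W = W := by
      ext x
      rw [mem_mp]
      constructor
      · intro h
        have := hst b hb _ h
        rwa [act_act_inv] at this
      · intro h
        have := hst b⁻¹ (inv_mem hb) _ h
        exact this
    rw [← hgW, ← mp_mul, inv_mul_cancel_right, mp_mul, h1]
  have hmem : ∀ b : ↥B, g * ((b : ↥(Zgrp F)) : GL I27 F) * g⁻¹ ∈ Zgrp F := fun b =>
    mul_mem (mul_mem hg b.1.2) (inv_mem hg)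
  let f : ↥B →* Matrix (Fin 2) (Fin 2) F :=
    { toFun := fun b => M2 (g * ((b : ↥(Zgrp F)) : GL I27 F) * g⁻¹)
      map_one' := by
        have : g * (((1 : ↥B) : ↥(Zgrp F)) : GL I27 F) * g⁻¹ = 1 := by simp
        rw [this, M2_one]
      map_mul' := fun a b => by
        have : g * (((a * b : ↥B) : ↥(Zgrp F)) : GL I27 F) * g⁻¹ =
            (g * ((a : ↥(Zgrp F)) : GL I27 F) * g⁻¹) * (g * ((b : ↥(Zgrp F)) : GL I27 F) * g⁻¹) := by
          simp only [Subgroup.coe_mul]; group
        rw [this, M2_mul (hmem b) (hstab b b.2)] }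
  refine ⟨g, hg, hgW, fun b hb j => ?_⟩
  have h1 := hB f.toHomUnits ⟨b, hb⟩
  have h2 : M2 (g * (b : GL I27 F) * g⁻¹) = 1 := congrArg Units.val h1
  have h3 : ∀ i, co (cj (g * (b : GL I27 F) * g⁻¹) (nMat F j.val)) i = if i = j then 1 else 0 := by
    intro i
    have := congrFun (congrFun h2 i) j
    rwa [M2, Matrix.of_apply, Matrix.one_apply] at this
  rw [cj_eq (hmem ⟨b, hb⟩) (hstab b hb) j, h3, h3]
  fin_cases j <;> simp

/-- Commuting with a conjugate of a root element. -/
theorem comm_of_cj {g : GL I27 F} (hg : g ∈ Zgrp F) {b : ↥(Zgrp F)}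
    (hb : cj (g * (b : GL I27 F) * g⁻¹) (nMat F 0) = nMat F 0) :
    b * ((⟨g, hg⟩ : ↥(Zgrp F))⁻¹ * ⟨zG 0 1, zG_mem (by norm_num) 1⟩ * ⟨g, hg⟩) =
      (⟨g, hg⟩ : ↥(Zgrp F))⁻¹ * ⟨zG 0 1, zG_mem (by norm_num) 1⟩ * ⟨g, hg⟩ * b := by
  have h0 : ((g * (b : GL I27 F) * g⁻¹ : GL I27 F) : Matrix I27 I27 F) * nMat F 0 =
      nMat F 0 * ((g * (b : GL I27 F) * g⁻¹ : GL I27 F) : Matrix I27 I27 F) := by
    conv_rhs => rw [← hb]
    rw [cj, mul_assoc _ _ ((g * (b : GL I27 F) * g⁻¹ : GL I27 F) : Matrix I27 I27 F), ← Units.val_mul,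
      inv_mul_cancel, Units.val_one, mul_one]
  have h1 : g * (b : GL I27 F) * g⁻¹ * zG 0 1 = zG 0 1 * (g * (b : GL I27 F) * g⁻¹) := by
    apply Units.ext
    rw [Units.val_mul, Units.val_mul (zG 0 1), coe_zG, zMat, one_smul, mul_add, add_mul, mul_one, one_mul, h0]
  apply Subtype.ext
  change (b : GL I27 F) * (g⁻¹ * zG 0 1 * g) = g⁻¹ * zG 0 1 * g * (b : GL I27 F)
  calc (b : GL I27 F) * (g⁻¹ * zG 0 1 * g) = g⁻¹ * (g * (b : GL I27 F) * g⁻¹ * zG 0 1) * g := by group
    _ = g⁻¹ * zG 0 1 * g * (b : GL I27 F) := by rw [h1]; group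

theorem three_core {B : Subgroup ↥(Zgrp F)} (hB : ∀ θ : ↥B →* GL (Fin 2) F, ∀ b, θ b = 1)
    {W : Submodule F (I27 → F)} (h3 : finrank F ↥W = 3) (hW : TS W)
    (hst : ∀ b ∈ B, ∀ w ∈ W, act (b : GL I27 F) w ∈ W) :
    ∃ z : ↥(Zgrp F), ad F z ≠ 1 ∧ ∀ b ∈ B, b * z = z * b := by
  obtain ⟨g, hg, -, h⟩ := exists_two hB h3 hW hst
  exact ⟨_, ad_ne_one hg rfl, fun b hb => comm_of_cj hg (h b hb 0)⟩

end Cfsg.Agent.H203.E6

namespace Cfsg.Agent.H163.E6.Sing

open Cfsg.Lie Cfsg.Agent.H203.E6 Module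
open Cfsg.Agent.ChevalleyStructure.E6Form.Table (act act_mul act_one)
open Cfsg.Agent.ChevalleyStructure.E6Min.Basic (Zgrp)
open Cfsg.Agent.ChevalleyStructure.E6Min.Adjoint (ad ker_ad)
open Cfsg.Agent.H184.GraphE6 (gU PU PU_sq dual dual_dual dual_mem_Zgrp)

universe u

variable {F : Type u} [Field F]

/-- SING3: a totally singular 3-space determines a 2-dimensional space of root elements; so a perfect group without
non-trivial 2-dimensional representation stabilizing it commutes with a root element. -/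
theorem three (ρ : Representation F ↥(Zgrp F) (I27 → F)) (hρ : ρ = V F ∨ ρ = V' F) {B : Subgroup ↥(Zgrp F)}
    (hB : ∀ θ : ↥B →* GL (Fin 2) F, ∀ b, θ b = 1) {W : Submodule F (I27 → F)} (h3 : finrank F ↥W = 3) (hW : TS W)
    (hst : ∀ b ∈ B, ∀ w ∈ W, ρ b w ∈ W) : ∃ z : ↥(Zgrp F), ad F z ≠ 1 ∧ ∀ b ∈ B, b * z = z * b := by
  rcases hρ with rfl | rfl
  · exact three_core hB h3 (TS_of hW) hst
  · let δ : ↥(Zgrp F) →* ↥(Zgrp F) :=
      { toFun := fun g => ⟨dual (g : GL I27 F), dual_mem_Zgrp g.2⟩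
        map_one' := Subtype.ext (map_one dual)
        map_mul' := fun g h => Subtype.ext (map_mul dual _ _) }
    have hδ : ∀ g, δ (δ g) = g := fun g => Subtype.ext (dual_dual _)
    have hB' : ∀ θ : ↥(B.map δ) →* GL (Fin 2) F, ∀ b, θ b = 1 := by
      intro θ b
      obtain ⟨_, b, hb, rfl⟩ := b
      exact hB (θ.comp (δ.subgroupMap B)) ⟨b, hb⟩
    have hW' : Cfsg.Agent.H203.E6.TS (mp (PU F) W) := by
      intro x hx
      rw [mem_mp] at hx
      rw [singular_iff]
      have h1 : x = act (PU F) (act (PU F)⁻¹ x) := by rw [← act_mul, mul_inv_cancel, act_one]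
      rw [h1, sh_PU, hW.1 _ hx]
      exact Matrix.mulVec_zero _
    obtain ⟨z, hz1, hz⟩ := three_core hB' (by rw [finrank_mp, h3]) hW' (by
      rintro _ ⟨b, hb, rfl⟩ w hw
      rw [mem_mp] at hw ⊢
      have h1 := hst b hb _ hw
      have hP : (PU F)⁻¹ = PU F := inv_eq_of_mul_eq_one_left PU_sq
      rw [V'_apply] at h1
      change act (gU (b : GL I27 F)) (act (PU F)⁻¹ w) ∈ W at h1
      change act (PU F)⁻¹ (act (dual (b : GL I27 F)) w) ∈ W
      rw [gU, ← act_mul, mul_assoc, mul_inv_cancel, mul_one, act_mul] at h1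
      rwa [hP])
    refine ⟨δ z, ?_, ?_⟩
    · intro h
      apply hz1
      have h1 : δ z ∈ (ad F).ker := h
      have h2 : z ∈ (ad F).ker := by
        rw [ker_ad, Subgroup.mem_center_iff] at h1 ⊢
        intro g
        have := congrArg δ (h1 (δ g))
        rwa [map_mul, map_mul, hδ, hδ] at this
      exact h2
    · intro b hb
      have := congrArg δ (hz (δ b) ⟨b, hb, rfl⟩)
      rwa [map_mul, map_mul, hδ] at this

end Cfsg.Agent.H163.E6.Sing
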